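import Mathlib

/-! Arithmetic for Brauer's theorem on perfect groups with a Sylow subgroup of prime order. -/

set_option autoImplicit false
set_option linter.unusedSectionVars false
set_option linter.unusedVariables false

namespace Cfsg.Agent.Lib.Small.BD

/-- No divisor of `(p - 1) * v` is `≡ 1 mod p` and strictly between `1` and `v`. -/
def NoDivisor (p n : ℕ) : Prop := ∀ u, 0 < u → u < n → ¬ (1 + u * p) ∣ (p - 1) * (1 + n * p)

/-- A divisor `≡ 1` gives the third alternative. -/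
theorem third_of_dvd {p n u : ℕ} (hp : 0 < p) (hu : 0 < u) (hun : u < n) (hd : (1 + u * p) ∣ (p - 1) * (1 + n * p)) :
    ∃ h u : ℕ, 0 < h ∧ 0 < u ∧ n * (u + 1) = h * u * p + u ^ 2 + u + h := by
  obtain ⟨t, rfl⟩ : ∃ t, n = u + t := ⟨n - u, by omega⟩
  have ht : 0 < t := by omega
  obtain ⟨q, hq⟩ := hd
  have hcop : Nat.Coprime (1 + u * p) (p ^ 2) := by
    apply Nat.Coprime.pow_right
    rw [Nat.coprime_comm]
    simp
  have hdvd : (1 + u * p) ∣ (u + 1) * t * p ^ 2 := by
    have hp1 : ((p - 1 : ℕ) : ℤ) = (p : ℤ) - 1 := by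
      push_cast [Nat.cast_sub (by omega : 1 ≤ p)]
      ring
    have hqz : ((p : ℤ) - 1) * (1 + ((u : ℤ) + t) * p) = (1 + (u : ℤ) * p) * q := by
      rw [← hp1]
      exact_mod_cast hq
    have h1 : (((1 + u * p : ℕ)) : ℤ) ∣ (((u + 1) * t * p ^ 2 : ℕ) : ℤ) := by
      refine ⟨(q : ℤ) + t * p - (p - 1), ?_⟩
      push_cast
      linear_combination hqz
    exact_mod_cast h1
  have hd2 := hcop.dvd_of_dvd_mul_right hdvd
  obtain ⟨h, hh⟩ := hd2
  have hpos : 0 < (u + 1) * t := by positivity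
  have hh0 : 0 < h := by
    rcases Nat.eq_zero_or_pos h with h0 | h0
    · rw [h0, mul_zero] at hh
      omega
    · exact h0
  refine ⟨h, u, hh0, hu, ?_⟩
  have e : (u + t) * (u + 1) = (u + 1) * t + u * (u + 1) := by ring
  rw [e, hh]
  ring

theorem noDivisor_of_not_third {p n : ℕ} (hp : 0 < p)
    (h : ¬ ∃ h u : ℕ, 0 < h ∧ 0 < u ∧ n * (u + 1) = h * u * p + u ^ 2 + u + h) : NoDivisor p n :=
  fun _ hu hun hd => h (third_of_dvd hp hu hun hd)

/-- The reduction of a divisor `x` of `m * v` to a divisor of `v`. -/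
theorem exists_gcd_data {x m v : ℕ} (hx0 : 0 < x) (hm0 : 0 < m) (hv0 : 0 < v) (hx : x ∣ m * v) :
    ∃ g x' m' k, x = g * x' ∧ m = g * m' ∧ v = x' * k ∧ 0 < g ∧ 0 < x' ∧ 0 < m' ∧ 0 < k := by
  set g := Nat.gcd x m with hg
  have hgpos : 0 < g := Nat.gcd_pos_of_pos_left _ hx0
  obtain ⟨x', hx'⟩ : g ∣ x := Nat.gcd_dvd_left _ _
  obtain ⟨m', hm'⟩ : g ∣ m := Nat.gcd_dvd_right _ _
  have hcop : Nat.Coprime x' m' := by
    have := Nat.coprime_div_gcd_div_gcd (m := x) (n := m) hgpos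
    rwa [Nat.div_eq_of_eq_mul_right hgpos hx', Nat.div_eq_of_eq_mul_right hgpos hm'] at this
  have hd : x' ∣ v := by
    have h1 : g * x' ∣ g * (m' * v) := by
      rw [← hx', ← mul_assoc, ← hm']
      exact hx
    exact hcop.dvd_of_dvd_mul_left (Nat.dvd_of_mul_dvd_mul_left hgpos h1)
  obtain ⟨k, hk⟩ := hd
  have hx'0 : 0 < x' := by
    rcases Nat.eq_zero_or_pos x' with h | h
    · rw [h, mul_zero] at hx'
      omega
    · exact h
  have hm'0 : 0 < m' := by
    rcases Nat.eq_zero_or_pos m' with h | h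
    · rw [h, mul_zero] at hm'
      omega
    · exact h
  have hk0 : 0 < k := by
    rcases Nat.eq_zero_or_pos k with h | h
    · rw [h, mul_zero] at hk
      omega
    · exact h
  exact ⟨g, x', m', k, hx', hm', hk, hgpos, hx'0, hm'0, hk0⟩

/-- A degree `≡ 1` equals `v`. -/
theorem arith_plus {p n m u : ℕ} (hp : p.Prime) (hm0 : 0 < m) (hmp : m ∣ p - 1) (hu : 0 < u)
    (hnd : NoDivisor p n) (hx : (1 + u * p) ∣ m * (1 + n * p)) : u = n := by
  classical
  have hp1 := hp.one_lt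
  rcases Nat.lt_trichotomy u n with h | h | h
  · exact absurd (hx.trans (Nat.mul_dvd_mul_right hmp _)) (hnd u hu h)
  · exact h
  · exfalso
    obtain ⟨g, x', m', k, h1, h2, h3, hg, hx', hm', hk⟩ := exists_gcd_data (by positivity) hm0 (by positivity) hx
    have hmle : m ≤ p - 1 := Nat.le_of_dvd (by omega) hmp
    have hgle : g ≤ m := by
      rw [h2]
      exact Nat.le_mul_of_pos_right _ hm'
    have hz1 : (1 : ℤ) + u * p = g * x' := by exact_mod_cast h1
    have hz3 : (1 : ℤ) + n * p = x' * k := by exact_mod_cast h3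
    have hdv : (p : ℤ) ∣ (x' : ℤ) * ((g : ℤ) - k) := ⟨(u : ℤ) - n, by linear_combination hz3 - hz1⟩
    have hxp : ¬ (p : ℤ) ∣ (x' : ℤ) := by
      intro hd
      have hd2 : (p : ℤ) ∣ (1 : ℤ) + n * p := by
        rw [hz3]
        exact Dvd.dvd.mul_right hd _
      have hd3 : (p : ℤ) ∣ (1 : ℤ) := by
        have := (Int.dvd_add_left (Dvd.intro_left (n : ℤ) rfl)).mp hd2
        exact this
      have := Int.le_of_dvd (by norm_num) hd3
      have : (1 : ℤ) < p := by exact_mod_cast hp1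
      omega
    have hpp : Prime (p : ℤ) := Nat.prime_iff_prime_int.mp hp
    have hdv2 := (hpp.dvd_or_dvd hdv).resolve_left hxp
    -- `g ≤ k`
    have hgk : g ≤ k := by
      by_contra hlt
      have h4 : 0 < (g : ℤ) - k := by omega
      have h5 := Int.le_of_dvd h4 hdv2
      have h6 : (g : ℤ) < p := by omega
      omega
    have h7 : 1 + u * p ≤ 1 + n * p := by
      rw [h1, h3, mul_comm g x']
      exact Nat.mul_le_mul_left _ hgk
    have h8 : n * p < u * p := Nat.mul_lt_mul_of_pos_right h hp.pos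
    omega

/-- A degree `≡ -1`: it is `p - 1` or `(p - 1) * v`. -/
theorem arith_minus {p n m r u x : ℕ} (hp : p.Prime) (hmr : m * r + 1 = p) (hm0 : 0 < m) (hr0 : 0 < r)
    (hxu : x + 1 = u * p) (hx0 : 0 < x) (hnd : NoDivisor p n) (hx : x ∣ m * (1 + n * p)) :
    u = 1 ∨ x = (p - 1) * (1 + n * p) := by
  classical
  have hp1 := hp.one_lt
  obtain ⟨g, x', m', k, h1, h2, h3, hg, hx', hm', hk⟩ := exists_gcd_data hx0 hm0 (by positivity) hx
  have hpz : (p : ℤ) = m * r + 1 := by exact_mod_cast hmr.symm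
  have hz1 : (x : ℤ) = g * x' := by exact_mod_cast h1
  have hz2 : (m : ℤ) = g * m' := by exact_mod_cast h2
  have hz3 : (1 : ℤ) + n * p = x' * k := by exact_mod_cast h3
  have hxuz : (x : ℤ) + 1 = u * p := by exact_mod_cast hxu
  have hdv : (p : ℤ) ∣ (x' : ℤ) * ((g : ℤ) + k) := ⟨(u : ℤ) + n, by linear_combination -hz1 - hz3 + hxuz⟩
  have hxp : ¬ (p : ℤ) ∣ (x' : ℤ) := by
    intro hd
    have hd2 : (p : ℤ) ∣ (1 : ℤ) + n * p := by
      rw [hz3]
      exact Dvd.dvd.mul_right hd _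
    have hd3 : (p : ℤ) ∣ (1 : ℤ) := (Int.dvd_add_left (Dvd.intro_left (n : ℤ) rfl)).mp hd2
    have := Int.le_of_dvd (by norm_num) hd3
    have : (1 : ℤ) < p := by exact_mod_cast hp1
    omega
  have hpp : Prime (p : ℤ) := Nat.prime_iff_prime_int.mp hp
  obtain ⟨t, ht⟩ := (hpp.dvd_or_dvd hdv).resolve_left hxp
  have htpos : 0 < t := by
    have hs : (0 : ℤ) < (g : ℤ) + k := by positivity
    rw [ht] at hs
    have hpz0 : (0 : ℤ) < p := by exact_mod_cast hp.pos
    exact (mul_pos_iff_of_pos_left hpz0).mp hs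
  set e := m' * r with he
  have he0 : 0 < e := by positivity
  have heg : (e : ℤ) * g = p - 1 := by
    rw [hpz, hz2, he]
    push_cast
    ring
  -- the number `D = e * k`
  have hD : ((e : ℤ) * k) * x = (p - 1) * (1 + n * p) := by
    rw [hz1, hz3, ← heg]
    ring
  obtain ⟨w, hw⟩ : ∃ w : ℕ, (w : ℤ) = (e : ℤ) * t - 1 := by
    have h5 : (1 : ℤ) ≤ (e : ℤ) * t := by
      have h6 : (1 : ℤ) ≤ e := by exact_mod_cast he0
      have h7 : (1 : ℤ) ≤ t := by omega
      nlinarith
    exact ⟨((e : ℤ) * t - 1).toNat, Int.toNat_of_nonneg (by omega)⟩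
  have hDw : (e : ℤ) * k = 1 + w * p := by
    have h5 : (k : ℤ) = p * t - g := by linarith
    rw [h5, hw]
    linear_combination -heg
  have hDn : (1 + w * p) * x = (p - 1) * (1 + n * p) := by
    have h5 : ((((1 + w * p) * x : ℕ)) : ℤ) = (((p - 1) * (1 + n * p) : ℕ) : ℤ) := by
      push_cast [Nat.cast_sub hp1.le]
      rw [← hDw]
      exact hD
    exact_mod_cast h5
  rcases Nat.eq_zero_or_pos w with hw0 | hw0
  · right
    rw [hw0] at hDn
    simpa using hDn
  · left
    have hdvd : (1 + w * p) ∣ (p - 1) * (1 + n * p) := ⟨x, hDn.symm⟩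
    have hwn : n ≤ w := by
      by_contra hlt
      exact hnd w hw0 (by omega) hdvd
    have h5 : (1 + n * p) * x ≤ (1 + w * p) * x := Nat.mul_le_mul_right _ (by
      have := Nat.mul_le_mul_right p hwn
      omega)
    rw [hDn, mul_comm] at h5
    have h6 : x ≤ p - 1 := Nat.le_of_mul_le_mul_right h5 (by positivity)
    have hu1 : 1 ≤ u := by
      rcases Nat.eq_zero_or_pos u with h | h
      · rw [h] at hxu
        omega
      · exact h
    by_contra hne
    have hu2 : 2 ≤ u := by omega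
    have h7 : 2 * p ≤ u * p := Nat.mul_le_mul_right _ hu2
    omega

/-- The number `σ` equals `w`. -/
theorem arith_sigma {p n m r w σ : ℕ} (hp : p.Prime) (hmr : m * r + 1 = p) (hr : 2 ≤ r) (hw : 1 ≤ w)
    (hnd : NoDivisor p n) (hn : n + 1 = r * σ) (hwσ : w ≤ σ) (hmwp : m < w * p) (hy : (w * p - m) ∣ m * (1 + n * p)) :
    σ = w := by
  classical
  by_contra hne
  have hlt : w < σ := by omega
  have h1 : r * w + 1 ≤ r * σ := by
    have : r * (w + 1) ≤ r * σ := Nat.mul_le_mul_left _ hlt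
    rw [mul_add, mul_one] at this
    omega
  have hrw : 2 ≤ r * w := by
    have : 2 * 1 ≤ r * w := Nat.mul_le_mul hr hw
    omega
  obtain ⟨y, hy0⟩ : ∃ y, y = w * p - m := ⟨_, rfl⟩
  rw [← hy0] at hy
  have hyz : y + m = w * p := by omega
  have hD : r * y = 1 + (r * w - 1) * p := by
    have h2 : ((r * y : ℕ) : ℤ) = ((1 + (r * w - 1) * p : ℕ) : ℤ) := by
      have hyz' : (y : ℤ) + m = w * p := by exact_mod_cast hyz
      have hpz : (m : ℤ) * r + 1 = p := by exact_mod_cast hmr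
      push_cast [Nat.cast_sub (by omega : 1 ≤ r * w)]
      have e1 : (y : ℤ) = w * p - m := by linarith
      rw [e1]
      linear_combination -hpz
    exact_mod_cast h2
  apply hnd (r * w - 1) (by omega) (by omega)
  rw [← hD]
  have h3 : p - 1 = r * m := by
    rw [← hmr]
    simp [mul_comm]
  rw [h3, mul_assoc]
  exact Nat.mul_dvd_mul_left _ hy

end Cfsg.Agent.Lib.Small.BD
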