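import Mathlib
import Cfsg.Agent.Lib.Small.BrauerGenA
import Cfsg.Agent.Lib.Small.BrauerPerf

/-! Brauer's theorem on perfect groups with a Sylow subgroup of prime order: the centralizer of `P`. -/

set_option autoImplicit false
set_option linter.unusedSectionVars false
set_option linter.unusedVariables false

namespace Cfsg.Agent.Lib.Small.BD

open Cfsg Cfsg.Agent.Lib.Char Cfsg.Agent.Lib.Blocks Subgroup MulAction
open scoped ComplexConjugate

universe u

/-- Rational algebraic integers. -/
theorem dvd_of_isIntegral_div {a b : ℕ} (hb : 0 < b) (h : IsIntegral ℤ ((a : ℂ) / (b : ℂ))) : b ∣ a := by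
  have h1 : IsIntegral ℤ ((algebraMap ℚ ℂ) ((a : ℚ) / (b : ℚ))) := by
    simpa using h
  have h2 : IsIntegral ℤ ((a : ℚ) / (b : ℚ)) := (isIntegral_algebraMap_iff (algebraMap ℚ ℂ).injective).mp h1
  obtain ⟨k, hk⟩ := IsIntegrallyClosed.isIntegral_iff.mp h2
  have hb0 : (b : ℚ) ≠ 0 := by exact_mod_cast hb.ne'
  have h3 : ((a : ℤ) : ℚ) = ((b * k : ℤ) : ℚ) := by
    push_cast
    have h4 : (k : ℚ) = (a : ℚ) / (b : ℚ) := by simpa using hk
    rw [h4]
    field_simp
  have h5 : (a : ℤ) = b * k := by exact_mod_cast h3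
  exact Int.natCast_dvd_natCast.mp ⟨k, h5⟩

variable {G : Type u} [Group G] [Fintype G] {p : ℕ} [hp : Fact p.Prime]

omit hp in
theorem one_lt_degree_of_perfect (hperf : commutator G = ⊤) {χ : IrrCharacter G} (hχ : χ ≠ one' G) :
    1 < charDegree (χ : G → ℂ) := by
  have hpos := charDegree_pos χ.2
  by_contra hc
  have h1 : charDegree (χ : G → ℂ) = 1 := by omega
  have h2 : (χ : G → ℂ) 1 = 1 := by
    rw [apply_one_eq_charDegree (IsIrrCharacter.isCharacter χ.2), h1]
    simp
  obtain ⟨lam, hlam⟩ := IsCharacter.exists_monoidHom (IsIrrCharacter.isCharacter χ.2) h2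
  apply hχ
  apply Subtype.ext
  rw [hlam]
  funext g
  have h3 := perfect_map_eq_one hperf (fun x y => mul_comm x y) lam g
  simp [h3]

omit hp in
theorem degree_dvd_index_of_value {χ : IrrCharacter G} {z : G} {a : ℤ} (ha : a = 1 ∨ a = -1) (h : (χ : G → ℂ) z = (a : ℂ)) :
    charDegree (χ : G → ℂ) ∣ (centralizer ({z} : Set G)).index := by
  have h1 := isIntegral_centralChar χ z
  rw [centralChar, h, apply_one_eq_charDegree (IsIrrCharacter.isCharacter χ.2)] at h1
  apply dvd_of_isIntegral_div (charDegree_pos χ.2)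
  rcases ha with rfl | rfl
  · simpa using h1
  · have h2 := h1.neg
    have e : -(((centralizer ({z} : Set G)).index : ℂ) * ((-1 : ℤ) : ℂ) / ((charDegree (χ : G → ℂ) : ℕ) : ℂ)) =
        ((centralizer ({z} : Set G)).index : ℂ) / ((charDegree (χ : G → ℂ) : ℕ) : ℂ) := by
      push_cast
      ring
    rwa [e] at h2

/-- Characters with value `±1` on `P` are faithful. -/
theorem faithful_of_value (hperf : commutator G = ⊤)
    (hcore : ∀ K : Subgroup G, K.Normal → ¬ p ∣ Nat.card K → K = ⊥) (P : Sylow p G) (hP : Nat.card (P : Subgroup G) = p)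
    {χ : IrrCharacter G} (hχ : χ ≠ one' G) {z : G} (hz : z ∈ (P : Subgroup G)) {a : ℤ} (ha : a = 1 ∨ a = -1)
    (hval : (χ : G → ℂ) z = (a : ℂ)) (g : G) (hg : (χ : G → ℂ) g = (χ : G → ℂ) 1) : g = 1 := by
  have hc := IsIrrCharacter.isCharacter χ.2
  haveI hn := charKer_normal hc
  by_cases hd : p ∣ Nat.card (charKer (χ : G → ℂ))
  · exfalso
    have hle := sylow_le_of_dvd hP (charKer (χ : G → ℂ)) hd
    have h1 := (mem_charKer hc).mp (hle hz)
    rw [hval, apply_one_eq_charDegree hc] at h1
    have h2 : a = (charDegree (χ : G → ℂ) : ℤ) := by exact_mod_cast h1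
    have h3 := one_lt_degree_of_perfect hperf hχ
    rcases ha with rfl | rfl <;> omega
  · have h1 := hcore _ hn hd
    have h2 : g ∈ charKer (χ : G → ℂ) := (mem_charKer hc).mpr hg
    rw [h1] at h2
    exact h2

/-- The index of the centralizer of an element of `P`. -/
theorem index_centralizer_of_mem (P : Sylow p G) (hP : Nat.card (P : Subgroup G) = p) {m n : ℕ}
    (hCN : (centralizer ((P : Subgroup G) : Set G)).relIndex (normalizer ((P : Subgroup G) : Set G)) = m)
    (hv : Nat.card (Sylow p G) = 1 + n * p) {z : G} (hz : z ∈ (P : Subgroup G)) (hz1 : z ≠ 1) :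
    (centralizer ({z} : Set G)).index = m * (1 + n * p) := by
  rw [centralizer_singleton_eq (p := p) (P : Subgroup G) hP hz hz1]
  have h1 := card_normalizer_eq (P : Subgroup G) hCN
  have h2 := SmallSimple.card_normalizer_mul_card_sylow p P
  have h3 : Nat.card (normalizer ((P : Subgroup G) : Set G)) * Nat.card (Sylow p G) = Nat.card G := h2
  have h4 := Subgroup.card_mul_index (centralizer ((P : Subgroup G) : Set G))
  rw [← h3, h1, hv] at h4
  have hpos : 0 < Nat.card (centralizer ((P : Subgroup G) : Set G)) := Nat.card_pos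
  apply Nat.eq_of_mul_eq_mul_left hpos
  rw [h4]
  ring

/-- The centralizer of `P` is a `p`-group. -/
theorem isPGroup_centralizer_of_noDivisor (hperf : commutator G = ⊤)
    (hcore : ∀ K : Subgroup G, K.Normal → ¬ p ∣ Nat.card K → K = ⊥) (P : Sylow p G)
    (hP : Nat.card (P : Subgroup G) = p) (hp2 : p ≠ 2) {m n : ℕ}
    (hCN : (centralizer ((P : Subgroup G) : Set G)).relIndex (normalizer ((P : Subgroup G) : Set G)) = m)
    (hm1 : 1 < m) (hmd : m ∣ p - 1) (hv : Nat.card (Sylow p G) = 1 + n * p) (hn1 : 1 ≤ n) (hnd : NoDivisor p n) :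
    IsPGroup p (centralizer ((P : Subgroup G) : Set G)) := by
  classical
  by_contra hCp
  have hpr := hp.out
  have hp3 : 3 ≤ p := by
    have := hpr.two_le
    omega
  obtain ⟨M, hM⟩ := exists_isPModular hpr
  have := isPrime_of_modular hM
  obtain ⟨X, Y, hB, hdis, hXc, hYc, εX, ε, hδ, hε, hdegY, hagree, hrel⟩ := principalConclusion hM hp2 P hP hCN
  have hsetup := frobSetup_of_card hM P hP
  have hP1 : Nat.card (P : Subgroup G) ≠ 1 := by
    rw [hP]
    omega
  have hne : (P : Subgroup G) ≠ ⊥ := by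
    intro h
    rw [h] at hP1
    simp at hP1
  obtain ⟨⟨z, hz⟩, hz1⟩ := Subgroup.ne_bot_iff_exists_ne_one.mp hne
  have hz1' : z ≠ 1 := fun e => hz1 (Subtype.ext e)
  have hidx := index_centralizer_of_mem P hP hCN hv hz hz1'
  have hone : ¬ p ∣ orderOf (1 : G) := by
    rw [orderOf_one]
    exact hpr.one_lt.ne' ∘ Nat.dvd_one.mp
  have hoq : ¬ p ∣ orderOf (1 : G) := hone
  have hval : ∀ χ ∈ X, (χ : G → ℂ) z = (εX χ : ℂ) := by
    intro χ hχ
    have h1 := (hδ χ hχ).2.2 z hz hz1' 1 (one_mem _) hone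
    rwa [mul_one] at h1
  -- degrees in `X`
  have hX : ∀ χ ∈ X, χ ≠ one' G → (1 + n * p) ∣ charDegree (χ : G → ℂ) := by
    intro χ hχ hχ1
    obtain ⟨h1, h2, -⟩ := hδ χ hχ
    have hgt := one_lt_degree_of_perfect hperf hχ1
    have hfaith := faithful_of_value hperf hcore P hP hχ1 hz h1 (hval χ hχ)
    have hge : 2 * p ≤ charDegree (χ : G → ℂ) := by
      by_contra hlt
      exact hCp (Cfsg.Agent.S4729.result p M hM hperf P χ (hB ▸ Or.inl hχ) hfaith (by omega))
    have hd : charDegree (χ : G → ℂ) ∣ m * (1 + n * p) := by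
      rw [← hidx]
      exact degree_dvd_index_of_value h1 (hval χ hχ)
    have hmod : (p : ℤ) ∣ (charDegree (χ : G → ℂ) : ℤ) - εX χ := Int.modEq_iff_dvd.mp h2.symm
    rcases h1 with h1 | h1
    · rw [h1] at hmod
      have h3 : (p : ℤ) ∣ ((charDegree (χ : G → ℂ) - 1 : ℕ) : ℤ) := by
        rw [Nat.cast_sub hgt.le]
        exact_mod_cast hmod
      obtain ⟨u, hu⟩ := Int.natCast_dvd_natCast.mp h3
      have hu1 : 0 < u := by
        rcases Nat.eq_zero_or_pos u with h | h
        · rw [h, mul_zero] at hu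
          omega
        · exact h
      have hx : charDegree (χ : G → ℂ) = 1 + u * p := by
        rw [mul_comm] at hu
        omega
      rw [hx] at hd
      have h5 := arith_plus hpr (by omega) hmd hu1 hnd hd
      rw [hx, h5]
    · rw [h1] at hmod
      have h3 : (p : ℤ) ∣ ((charDegree (χ : G → ℂ) + 1 : ℕ) : ℤ) := by
        push_cast
        simpa using hmod
      obtain ⟨u, hu⟩ := Int.natCast_dvd_natCast.mp h3
      obtain ⟨r, hr⟩ := hmd
      have hr0 : 0 < r := by
        rcases Nat.eq_zero_or_pos r with h | h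
        · rw [h] at hr
          omega
        · exact h
      rcases arith_minus hpr (m := m) (r := r) (u := u) (by omega) (by omega) hr0 (by rw [hu]; ring) (by omega) hnd hd with h5 | h5
      · exfalso
        rw [h5, mul_one] at hu
        omega
      · rw [h5]
        exact Dvd.intro_left _ rfl
  have hXf : X.Finite := Set.toFinite X
  have hYf : Y.Finite := Set.toFinite Y
  obtain ⟨r, hr⟩ := hmd
  have hm0 : 0 < m := by omega
  have hr0 : 0 < r := by
    rcases Nat.eq_zero_or_pos r with h | h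
    · rw [h] at hr
      omega
    · exact h
  have hYcard : Y.ncard = r := by
    rw [← Nat.card_coe_set_eq, hYc, hr]
    exact Nat.mul_div_cancel_left _ hm0
  have hYne : Y.Nonempty := by
    rw [← Set.ncard_pos hYf, hYcard]
    exact hr0
  obtain ⟨θ, hθ⟩ := hYne
  have hreg := hrel θ hθ 1 hone
  rw [finsum_mem_eq_finite_toFinset_sum _ hXf] at hreg
  have honeB : one' G ∈ X ∪ Y := by
    rw [← hB]
    exact self_mem_blockOf (oneIrr G)
  set y := charDegree (θ : G → ℂ) with hy
  have hypos : 0 < y := charDegree_pos θ.2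
  rw [apply_one_eq_charDegree (IsIrrCharacter.isCharacter θ.2), ← hy] at hreg
  have hregZ : ε * (y : ℤ) = ∑ χ ∈ hXf.toFinset, εX χ * (charDegree (χ : G → ℂ) : ℤ) := by
    have h3 : ((ε * (y : ℤ) : ℤ) : ℂ) = ((∑ χ ∈ hXf.toFinset, εX χ * (charDegree (χ : G → ℂ) : ℤ) : ℤ) : ℂ) := by
      push_cast
      rw [hreg]
      refine Finset.sum_congr rfl fun χ _ => ?_
      rw [apply_one_eq_charDegree (IsIrrCharacter.isCharacter χ.2)]
    exact Int.cast_injective h3
  have hvge : p + 1 ≤ 1 + n * p := by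
    have := Nat.mul_le_mul_right p hn1
    omega
  have hv2 : (2 : ℤ) ≤ ((1 + n * p : ℕ) : ℤ) := by
    have : 2 ≤ 1 + n * p := by omega
    exact_mod_cast this
  have hεcases : ε * ε = 1 := by
    rcases hε with h | h <;> rw [h] <;> norm_num
  -- the sum over `Y`
  have hdeg : ∀ χ : IrrCharacter G, conj ((χ : G → ℂ) 1) = (χ : G → ℂ) 1 := by
    intro χ
    rw [apply_one_eq_charDegree (IsIrrCharacter.isCharacter χ.2), Complex.conj_natCast]
  have hsplit : ∀ f : IrrCharacter G → ℂ, ∑ χ, indic (principalBlock M G) χ * f χ =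
      ∑ χ ∈ hXf.toFinset, f χ + ∑ χ ∈ hYf.toFinset, f χ := by
    intro f
    have hd : Disjoint hXf.toFinset hYf.toFinset := by
      rw [Finset.disjoint_left]
      intro χ h1 h2
      exact Set.disjoint_left.mp hdis (hXf.mem_toFinset.mp h1) (hYf.mem_toFinset.mp h2)
    rw [← Finset.sum_union hd, ← Finset.sum_subset (Finset.subset_univ (hXf.toFinset ∪ hYf.toFinset))]
    · refine Finset.sum_congr rfl fun χ hχ => ?_
      rw [indic_apply_of_mem, one_mul]
      rw [hB]
      rcases Finset.mem_union.mp hχ with h | h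
      · exact Or.inl (hXf.mem_toFinset.mp h)
      · exact Or.inr (hYf.mem_toFinset.mp h)
    · intro χ _ hχ
      rw [indic_apply_of_notMem, zero_mul]
      rw [hB]
      rintro (h | h)
      · exact hχ (Finset.mem_union_left _ (hXf.mem_toFinset.mpr h))
      · exact hχ (Finset.mem_union_right _ (hYf.mem_toFinset.mpr h))
  have hsumY : ∑ θ' ∈ hYf.toFinset, (θ' : G → ℂ) z = -(ε : ℂ) := by
    have h1 := hsetup.column_one hz hz1'
    rw [hsplit (fun χ => (χ : G → ℂ) z * conj ((χ : G → ℂ) 1))] at h1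
    have h2 : ∑ χ ∈ hXf.toFinset, (χ : G → ℂ) z * conj ((χ : G → ℂ) 1) = ∑ χ ∈ hXf.toFinset, (εX χ : ℂ) * (χ : G → ℂ) 1 := by
      refine Finset.sum_congr rfl fun χ hχ => ?_
      rw [hval χ (hXf.mem_toFinset.mp hχ), hdeg]
    have h3 : ∑ θ' ∈ hYf.toFinset, (θ' : G → ℂ) z * conj ((θ' : G → ℂ) 1) = (∑ θ' ∈ hYf.toFinset, (θ' : G → ℂ) z) * (y : ℂ) := by
      rw [Finset.sum_mul]
      refine Finset.sum_congr rfl fun θ' hθ' => ?_
      rw [hdeg, hagree θ' (hYf.mem_toFinset.mp hθ') θ hθ 1 hone, apply_one_eq_charDegree (IsIrrCharacter.isCharacter θ.2)]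
    rw [h2, h3, ← hreg] at h1
    have hy0 : (y : ℂ) ≠ 0 := by exact_mod_cast hypos.ne'
    apply mul_right_cancel₀ hy0
    linear_combination h1
  -- `y` divides `m * v`
  have hyd : y ∣ m * (1 + n * p) := by
    rw [← hidx]
    apply dvd_of_isIntegral_div hypos
    have h1 : IsIntegral ℤ (∑ θ' ∈ hYf.toFinset, centralChar (θ' : G → ℂ) z) :=
      IsIntegral.sum _ fun θ' _ => isIntegral_centralChar θ' z
    have h2 : ∑ θ' ∈ hYf.toFinset, centralChar (θ' : G → ℂ) z =
        ((centralizer ({z} : Set G)).index : ℂ) * (-(ε : ℂ)) / (y : ℂ) := by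
      rw [← hsumY, Finset.mul_sum, Finset.sum_div]
      refine Finset.sum_congr rfl fun θ' hθ' => ?_
      rw [centralChar, hagree θ' (hYf.mem_toFinset.mp hθ') θ hθ 1 hone, apply_one_eq_charDegree (IsIrrCharacter.isCharacter θ.2)]
    rw [h2] at h1
    rcases hε with h | h
    · have h3 := h1.neg
      have e : -(((centralizer ({z} : Set G)).index : ℂ) * (-(ε : ℂ)) / (y : ℂ)) = ((centralizer ({z} : Set G)).index : ℂ) / (y : ℂ) := by
        rw [h]
        push_cast
        ring
      rwa [e] at h3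
    · have e : ((centralizer ({z} : Set G)).index : ℂ) * (-(ε : ℂ)) / (y : ℂ) = ((centralizer ({z} : Set G)).index : ℂ) / (y : ℂ) := by
        rw [h]
        push_cast
        ring
      rwa [e] at h1
  rcases honeB with hoX | hoY
  · -- the trivial character is in `X`
    have hoε : εX (one' G) = 1 := by
      rcases (hδ _ hoX).1 with h | h
      · exact h
      · exfalso
        have h2 := (hδ _ hoX).2.1
        rw [h] at h2
        have h3 : charDegree ((one' G : IrrCharacter G) : G → ℂ) = 1 := charDegree_eq (by simp)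
        rw [h3] at h2
        have h4 := Int.modEq_iff_dvd.mp h2.symm
        have h5 : (p : ℤ) ∣ 2 := by
          norm_num at h4
          exact h4
        have h6 := Int.le_of_dvd (by norm_num) h5
        have h7 : (3 : ℤ) ≤ p := by exact_mod_cast hp3
        omega
    have hoXf : one' G ∈ hXf.toFinset := hXf.mem_toFinset.mpr hoX
    rw [← Finset.add_sum_erase _ _ hoXf, hoε] at hregZ
    have h3 : charDegree ((one' G : IrrCharacter G) : G → ℂ) = 1 := charDegree_eq (by simp)
    rw [h3] at hregZ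
    have hdvdS : ((1 + n * p : ℕ) : ℤ) ∣ ∑ χ ∈ hXf.toFinset.erase (one' G), εX χ * (charDegree (χ : G → ℂ) : ℤ) := by
      apply Finset.dvd_sum
      intro χ hχ
      apply Dvd.dvd.mul_left
      exact_mod_cast hX χ (hXf.mem_toFinset.mp (Finset.mem_of_mem_erase hχ)) (Finset.ne_of_mem_erase hχ)
    obtain ⟨T, hT⟩ := hdvdS
    rw [hT] at hregZ
    replace hregZ : ε * (y : ℤ) = 1 + ((1 + n * p : ℕ) : ℤ) * T := by
      rw [hregZ]
      push_cast
      ring
    have hcop : Nat.Coprime y (1 + n * p) := by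
      rw [← Nat.isCoprime_iff_coprime]
      refine ⟨ε, -T, ?_⟩
      push_cast at hregZ ⊢
      linear_combination hregZ
    have hym : y ∣ m := hcop.dvd_of_dvd_mul_right hyd
    have hyle : y ≤ m := Nat.le_of_dvd hm0 hym
    have hmle : m + 1 ≤ p := by
      have := Nat.le_mul_of_pos_right m hr0
      have := hpr.two_le
      omega
    have hT0 : T = 0 := by
      by_contra hT0
      have h4 : ((1 + n * p : ℕ) : ℤ) ≤ |((1 + n * p : ℕ) : ℤ) * T| := by
        rw [abs_mul, abs_of_nonneg (by positivity : (0 : ℤ) ≤ ((1 + n * p : ℕ) : ℤ))]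
        have : 1 ≤ |T| := Int.one_le_abs hT0
        nlinarith
      have h5 : ((1 + n * p : ℕ) : ℤ) * T = ε * y - 1 := by linarith
      rw [h5] at h4
      have h6 : |ε * (y : ℤ) - 1| ≤ y + 1 := by
        rcases hε with h | h <;> rw [h] <;> rw [abs_le] <;> constructor <;> linarith [Int.natCast_nonneg y]
      have h7 : (y : ℤ) ≤ m := by exact_mod_cast hyle
      have h8 : (m : ℤ) + 1 ≤ p := by exact_mod_cast hmle
      have h9 : (p : ℤ) + 1 ≤ ((1 + n * p : ℕ) : ℤ) := by exact_mod_cast hvge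
      linarith
    rw [hT0, mul_zero, add_zero] at hregZ
    have hy1 : y = 1 ∧ ε = 1 := by
      rcases hε with h | h
      · rw [h, one_mul] at hregZ
        exact ⟨by exact_mod_cast hregZ, h⟩
      · rw [h] at hregZ
        omega
    obtain ⟨hy1, hε1⟩ := hy1
    have h4 := hdegY θ hθ
    rw [← hy, hy1, hε1, one_mul] at h4
    have h5 := Int.modEq_iff_dvd.mp h4
    have h6 : (0 : ℤ) < (m : ℤ) - 1 := by
      have : (1 : ℤ) < m := by exact_mod_cast hm1
      omega
    have h7 := Int.le_of_dvd h6 (by simpa using h5)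
    have h8 : (m : ℤ) + 1 ≤ p := by
      have : m + 1 ≤ p := by
        have := Nat.le_mul_of_pos_right m hr0
        have := hpr.two_le
        omega
      exact_mod_cast this
    omega
  · -- the trivial character is in `Y`
    have hθ1 : y = 1 := by
      have h3 := hagree _ hoY θ hθ 1 hone
      rw [apply_one_eq_charDegree (IsIrrCharacter.isCharacter θ.2)] at h3
      have h4 : ((one' G : IrrCharacter G) : G → ℂ) 1 = 1 := rfl
      rw [h4] at h3
      have h5 : (1 : ℕ) = y := by exact_mod_cast h3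
      exact h5.symm
    have hdvdS : ((1 + n * p : ℕ) : ℤ) ∣ ∑ χ ∈ hXf.toFinset, εX χ * (charDegree (χ : G → ℂ) : ℤ) := by
      apply Finset.dvd_sum
      intro χ hχ
      apply Dvd.dvd.mul_left
      have hχX := hXf.mem_toFinset.mp hχ
      have hne' : χ ≠ one' G := by
        rintro rfl
        exact Set.disjoint_left.mp hdis hχX hoY
      exact_mod_cast hX χ hχX hne'
    rw [← hregZ, hθ1] at hdvdS
    have h5 : ((1 + n * p : ℕ) : ℤ) ∣ 1 := by
      rcases hε with h | h
      · rw [h] at hdvdS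
        simpa using hdvdS
      · rw [h] at hdvdS
        simpa using hdvdS
    have h6 := Int.le_of_dvd (by norm_num) h5
    omega

end Cfsg.Agent.Lib.Small.BD
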