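import Mathlib
import Cfsg.Agent.Lib.Small.BrauerGenB
import Cfsg.Agent.Lib.Basic.Solv1

/-! Brauer's theorem on perfect groups with a Sylow subgroup of prime order. -/

set_option autoImplicit false
set_option linter.unusedSectionVars false
set_option linter.unusedVariables false

namespace Cfsg.Agent.Lib.Small.BD

open Cfsg Cfsg.Agent.Lib.Char Cfsg.Agent.Lib.Blocks Subgroup MulAction

universe u

/-- The core form with no divisors. -/
theorem brauer_core_noDivisor {G : Type u} [Group G] [Fintype G] {p : ℕ} [hp : Fact p.Prime] [IsSimpleGroup G]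
    (hnc : ¬ IsMulCommutative G) (P : Sylow p G)
    (hP : Nat.card (P : Subgroup G) = p) (hp2 : p ≠ 2)
    (hC : Nat.card (centralizer ((P : Subgroup G) : Set G)) = p) {n : ℕ} (hn1 : 1 ≤ n) (hnd : NoDivisor p n)
    (hv : Nat.card (Sylow p G) = 1 + n * p) :
    (∃ (F : Type) (_ : Field F) (_ : Fintype F), Fintype.card F = p ∧ 3 < p ∧
      Nonempty (G ≃* Matrix.ProjectiveSpecialLinearGroup (Fin 2) F)) ∨
    (∃ (k : ℕ) (F : Type) (_ : Field F) (_ : Fintype F), Fintype.card F = 2 ^ k ∧ p = 2 ^ k + 1 ∧ 3 < p ∧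
      Nonempty (G ≃* Matrix.ProjectiveSpecialLinearGroup (Fin 2) F)) := by
  classical
  have hpr := hp.out
  have hp3 : 3 ≤ p := by
    have := hpr.two_le
    omega
  have hnp : ¬ IsPGroup p G := by
    intro h
    have hS : (⊤ : Subgroup G) = (P : Subgroup G) :=
      P.is_maximal' (IsPGroup.of_equiv h Subgroup.topEquiv.symm) le_top
    apply hnc
    refine ⟨⟨fun a b => ?_⟩⟩
    exact comm_of_prime (p := p) (P : Subgroup G) hP a (by rw [← hS]; trivial) b (by rw [← hS]; trivial)
  obtain ⟨c, m, hCN, hm1, hmd, -, -⟩ := exists_index hnc P hP hnp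
  have hcard := card_eq_of_index P hC hCN hv
  obtain ⟨r, hr⟩ := id hmd
  have hr0 : 0 < r := by
    rcases Nat.eq_zero_or_pos r with h | h
    · rw [h] at hr
      omega
    · exact h
  have hm0 : 0 < m := by omega
  refine brauer_core_gen hnc P hP hp2 hC hn1 ?_ ?_
    (fun m' r' w σ h1 h2 h3 h4 h5 h6 h7 h8 => arith_sigma hpr h1 h3 h4 hnd h5 h6 h7 h8) hv
  · intro χ hχ hval
    have hd := dvd_degree_sub (P : Subgroup G) hP χ 1 (by simpa using hval)
    have h1 := one_lt_degree hnc hχ
    have h2 := Nat.dvd_of_mem_divisors (degree_coprime (Or.inl rfl) hd hcard (by positivity))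
    have h3 : (p : ℤ) ∣ ((charDegree (χ : G → ℂ) - 1 : ℕ) : ℤ) := by
      rw [Nat.cast_sub h1.le]
      exact_mod_cast hd
    obtain ⟨u, hu⟩ := Int.natCast_dvd_natCast.mp h3
    have hu1 : 0 < u := by
      rcases Nat.eq_zero_or_pos u with h | h
      · rw [h, mul_zero] at hu
        omega
      · exact h
    have hx : charDegree (χ : G → ℂ) = 1 + u * p := by
      rw [mul_comm] at hu
      omega
    rw [hx] at h2
    rw [hx, arith_plus hpr hm0 hmd hu1 hnd h2]
  · intro χ hχ hval
    have hd := dvd_degree_sub (P : Subgroup G) hP χ (-1) (by simpa using hval)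
    have h1 := one_lt_degree hnc hχ
    have h2 := Nat.dvd_of_mem_divisors (degree_coprime (Or.inr rfl) hd hcard (by positivity))
    have h3 : (p : ℤ) ∣ ((charDegree (χ : G → ℂ) + 1 : ℕ) : ℤ) := by
      push_cast
      simpa using hd
    obtain ⟨u, hu⟩ := Int.natCast_dvd_natCast.mp h3
    rcases arith_minus hpr (m := m) (r := r) (u := u) (by omega) hm0 hr0 (by rw [hu]; ring) (by omega) hnd h2 with h5 | h5
    · rw [hu, h5, mul_one]
    · exfalso
      have h6 := sum_degree_sq_le ({one' G, χ} : Finset (IrrCharacter G))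
      rw [Finset.sum_pair (Ne.symm hχ), hcard] at h6
      have h7 : charDegree ((one' G : IrrCharacter G) : G → ℂ) = 1 := charDegree_eq (by simp)
      rw [h7] at h6
      have h8 : ((charDegree (χ : G → ℂ) * charDegree (χ : G → ℂ) + 1 : ℕ) : ℤ) ≤ ((p * (m * (1 + n * p)) : ℕ) : ℤ) := by
        push_cast at h6 ⊢
        linarith
      have h9 : charDegree (χ : G → ℂ) * charDegree (χ : G → ℂ) + 1 ≤ p * (m * (1 + n * p)) := by exact_mod_cast h8
      rw [h5] at h9
      have hmle : m ≤ p - 1 := Nat.le_of_dvd (by omega) hmd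
      have hvge : p + 1 ≤ 1 + n * p := by
        have := Nat.mul_le_mul_right p hn1
        omega
      have hpp : 0 < p - 1 := by omega
      set v := 1 + n * p with hvdef
      have h10 : p * (m * v) ≤ p * ((p - 1) * v) := Nat.mul_le_mul_left _ (Nat.mul_le_mul_right _ hmle)
      have h11 : (p - 1) * ((p - 1) * v * v) < (p - 1) * (p * v) := by
        have e1 : (p - 1) * v * ((p - 1) * v) = (p - 1) * ((p - 1) * v * v) := by ring
        have e2 : p * ((p - 1) * v) = (p - 1) * (p * v) := by ring
        rw [e1] at h9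
        omega
      have h12 := Nat.lt_of_mul_lt_mul_left h11
      have hv0 : 0 < v := by omega
      have h13 : (p - 1) * v < p := by
        have : (p - 1) * v * v < p * v := h12
        exact Nat.lt_of_mul_lt_mul_right this
      have h14 : p ≤ (p - 1) * v := by
        have h15 : 2 * (p + 1) ≤ (p - 1) * v := Nat.mul_le_mul (by omega) hvge
        omega
      omega

variable {G : Type u} [Group G] [Finite G] {p : ℕ} [hp : Fact p.Prime]

/-- Simplicity. -/
theorem isSimple_of_core (hperf : commutator G = ⊤)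
    (hcore : ∀ K : Subgroup G, K.Normal → ¬ p ∣ Nat.card K → K = ⊥) (P : Sylow p G) (hP : Nat.card (P : Subgroup G) = p)
    (hC : ∀ x, x ∈ centralizer ((P : Subgroup G) : Set G) → x ∈ (P : Subgroup G)) : IsSimpleGroup G := by
  classical
  have hpr := hp.out
  haveI : Nontrivial G := by
    by_contra h
    rw [not_nontrivial_iff_subsingleton] at h
    have h1 : Nat.card (P : Subgroup G) = 1 := Nat.card_unique
    rw [hP] at h1
    exact hpr.ne_one h1
  refine ⟨fun K hK => ?_⟩
  by_cases hd : p ∣ Nat.card K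
  · right
    have hle := sylow_le_of_dvd hP K hd
    have hsup := Sylow.normalizer_sup_eq_top' P hle
    exact top_of_sup hperf (isSolvable_normalizer hP hC) hsup
  · left
    exact hcore K hK hd

/-- The automorphism group of a cyclic group is commutative. -/
theorem mulAut_comm_of_isCyclic {A : Type*} [Group A] [IsCyclic A] (a b : MulAut A) : a * b = b * a :=
  (IsCyclic.mulAutMulEquiv A).injective (by rw [map_mul, map_mul, mul_comm])

/-- A normal Sylow subgroup of a perfect group. -/
theorem not_normal_of_perfect (hperf : commutator G = ⊤) (P : Sylow p G) (hP : Nat.card (P : Subgroup G) = p) :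
    ¬ (P : Subgroup G).Normal := by
  classical
  intro hn
  have hpr := hp.out
  haveI : IsCyclic (P : Subgroup G) := isCyclic_of_prime_card hP
  have hcomm := mulAut_comm_of_isCyclic (A := (P : Subgroup G))
  refine false_of_normalizer_le hperf P ?_ (by rw [hP]; exact hpr.ne_one)
  intro g _
  rw [mem_centralizer_iff]
  intro y hy
  have h1 := perfect_map_eq_one hperf hcomm (MulAut.conjNormal (H := (P : Subgroup G))) g
  have h2 : (MulAut.conjNormal (H := (P : Subgroup G)) g ⟨y, hy⟩ : (P : Subgroup G)) = ⟨y, hy⟩ := by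
    rw [h1]
    rfl
  have h3 := congrArg Subtype.val h2
  rw [MulAut.conjNormal_apply] at h3
  calc y * g = (g * y * g⁻¹) * g := by rw [h3]
    _ = g * y := by group

/-- **Brauer's theorem** for perfect groups with trivial `p'`-core. -/
theorem brauer_noDivisor_perfect (hperf : commutator G = ⊤)
    (hcore : ∀ K : Subgroup G, K.Normal → ¬ p ∣ Nat.card K → K = ⊥) (P : Sylow p G) (hP : Nat.card (P : Subgroup G) = p)
    {n : ℕ} (hv : Nat.card (Sylow p G) = 1 + n * p) (hnd : NoDivisor p n) :
    (∃ (F : Type) (_ : Field F) (_ : Fintype F), Fintype.card F = p ∧ 3 < p ∧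
      Nonempty (G ≃* Matrix.ProjectiveSpecialLinearGroup (Fin 2) F)) ∨
    (∃ (k : ℕ) (F : Type) (_ : Field F) (_ : Fintype F), Fintype.card F = 2 ^ k ∧ p = 2 ^ k + 1 ∧ 3 < p ∧
      Nonempty (G ≃* Matrix.ProjectiveSpecialLinearGroup (Fin 2) F)) := by
  classical
  letI : Fintype G := Fintype.ofFinite _
  have hpr := hp.out
  have hp2 : p ≠ 2 := by
    rintro rfl
    exact false_of_sylow_two hperf P hP
  have hp3 : 3 ≤ p := by
    have := hpr.two_le
    omega
  have hmd : (centralizer ((P : Subgroup G) : Set G)).relIndex (normalizer ((P : Subgroup G) : Set G)) ∣ p - 1 := by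
    have h1 := SmallSimple.relIndex_centralizer_normalizer_dvd P
    haveI : IsCyclic (P : Subgroup G) := isCyclic_of_prime_card hP
    rw [IsCyclic.card_mulAut, hP, Nat.totient_prime hpr] at h1
    exact h1
  have hm1 : 1 < (centralizer ((P : Subgroup G) : Set G)).relIndex (normalizer ((P : Subgroup G) : Set G)) := by
    have hne : (centralizer ((P : Subgroup G) : Set G)).relIndex (normalizer ((P : Subgroup G) : Set G)) ≠ 1 := by
      intro h
      rw [Subgroup.relIndex_eq_one] at h
      exact false_of_normalizer_le hperf P h (by rw [hP]; exact hpr.ne_one)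
    have h0 : (centralizer ((P : Subgroup G) : Set G)).relIndex (normalizer ((P : Subgroup G) : Set G)) ≠ 0 := by
      intro h
      rw [h] at hmd
      have := Nat.eq_zero_of_zero_dvd hmd
      omega
    omega
  have hn1 : 1 ≤ n := by
    by_contra h0
    have h1 : n = 0 := by omega
    rw [h1, zero_mul, add_zero] at hv
    haveI : Subsingleton (Sylow p G) := (Nat.card_eq_one_iff_unique.mp hv).1
    exact not_normal_of_perfect hperf P hP (Sylow.normal_of_subsingleton P)
  have hpg := isPGroup_centralizer_of_noDivisor hperf hcore P hP hp2 rfl hm1 hmd hv hn1 hnd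
  have hle : (P : Subgroup G) ≤ centralizer ((P : Subgroup G) : Set G) := by
    intro x hx
    rw [mem_centralizer_iff]
    intro y hy
    exact comm_of_prime (p := p) (P : Subgroup G) hP y hy x hx
  have heq : (P : Subgroup G) = centralizer ((P : Subgroup G) : Set G) := (P.is_maximal' hpg hle).symm
  haveI hs := isSimple_of_core hperf hcore P hP (fun x hx => by rw [heq]; exact hx)
  have hnc : ¬ IsMulCommutative G := by
    intro h
    have h1 : commutator G = ⊥ := by
      rw [commutator_eq_bot_iff_center_eq_top]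
      rw [Subgroup.eq_top_iff']
      intro g
      rw [Subgroup.mem_center_iff]
      intro x
      exact h.is_comm.comm x g
    rw [hperf] at h1
    exact top_ne_bot h1
  exact brauer_core_noDivisor hnc P hP hp2 (by rw [← heq, hP]) hn1 hnd hv

/-- **Brauer's theorem** for perfect groups, quotient form. -/
theorem brauer_noDivisor_quotient (hperf : commutator G = ⊤) (P : Sylow p G) (hP : Nat.card (P : Subgroup G) = p)
    {n : ℕ} (hv : Nat.card (Sylow p G) = 1 + n * p) (hnd : NoDivisor p n) :
    (∃ (F : Type) (_ : Field F) (_ : Fintype F), Fintype.card F = p ∧ 3 < p ∧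
      Nonempty (G ⧸ pPrimeCore p G ≃* Matrix.ProjectiveSpecialLinearGroup (Fin 2) F)) ∨
    (∃ (k : ℕ) (F : Type) (_ : Field F) (_ : Fintype F), Fintype.card F = 2 ^ k ∧ p = 2 ^ k + 1 ∧ 3 < p ∧
      Nonempty (G ⧸ pPrimeCore p G ≃* Matrix.ProjectiveSpecialLinearGroup (Fin 2) F)) := by
  classical
  have hpr := hp.out
  have hHn : (pPrimeCore p G).Normal := Cfsg.Agent.Lib.Basic.pPrimeCore_normal p
  set H := pPrimeCore p G with hH
  have hperfΓ := commutator_quotient_eq_top hperf H
  have hcoreΓ : ∀ K : Subgroup (G ⧸ H), K.Normal → ¬ p ∣ Nat.card K → K = ⊥ := by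
    intro K hK hd
    have h1 := Cfsg.Agent.Lib.Basic.le_pPrimeCore hK (((Nat.Prime.coprime_iff_not_dvd hpr).mpr hd).symm)
    have h2 : pPrimeCore p (G ⧸ H) = ⊥ := Cfsg.Agent.Lib.Basic.pPrimeCore_quotient_eq_bot p
    rw [h2] at h1
    exact le_bot_iff.mp h1
  have hf : Function.Surjective (QuotientGroup.mk' H) := QuotientGroup.mk'_surjective H
  let Q : Sylow p (G ⧸ H) := P.mapSurjective hf
  have hQcoe : (Q : Subgroup (G ⧸ H)) = (P : Subgroup G).map (QuotientGroup.mk' H) := Sylow.coe_mapSurjective hf P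
  -- the order of `Q`
  have hQ : Nat.card (Q : Subgroup (G ⧸ H)) = p := by
    have h1 := Sylow.card_eq_multiplicity P
    have h2 := Sylow.card_eq_multiplicity Q
    have h3 : Nat.card G = Nat.card (G ⧸ H) * Nat.card H := Subgroup.card_eq_card_quotient_mul_card_subgroup H
    have h4 : (Nat.card H).Coprime p := Cfsg.Agent.Lib.Basic.pPrimeCore_coprime p
    have h5 : ¬ p ∣ Nat.card H := (Nat.Prime.coprime_iff_not_dvd hpr).mp h4.symm
    have h6 : (Nat.card G).factorization p = (Nat.card (G ⧸ H)).factorization p := by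
      rw [h3, Nat.factorization_mul Nat.card_pos.ne' Nat.card_pos.ne', Finsupp.add_apply,
        Nat.factorization_eq_zero_of_not_dvd h5, add_zero]
    rw [h2, ← h6, ← h1, hP]
  -- the number of Sylow subgroups
  have hdvd : Nat.card (Sylow p (G ⧸ H)) ∣ Nat.card (Sylow p G) := by
    rw [Sylow.card_eq_index_normalizer P, Sylow.card_eq_index_normalizer Q]
    have hle : normalizer ((P : Subgroup G) : Set G) ≤ (normalizer ((Q : Subgroup (G ⧸ H)) : Set (G ⧸ H))).comap (QuotientGroup.mk' H) := by
      rw [← Subgroup.map_le_iff_le_comap, hQcoe]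
      exact Subgroup.le_normalizer_map _
    have h1 := Subgroup.index_dvd_of_le hle
    rwa [Subgroup.index_comap_of_surjective _ hf] at h1
  have hmod : Nat.card (Sylow p (G ⧸ H)) ≡ 1 [MOD p] := card_sylow_modEq_one p (G ⧸ H)
  obtain ⟨u, hu⟩ : ∃ u : ℕ, Nat.card (Sylow p (G ⧸ H)) = 1 + u * p := by
    have h1 : (p : ℤ) ∣ (Nat.card (Sylow p (G ⧸ H)) : ℤ) - 1 := by
      have h3 := Nat.modEq_iff_dvd.mp hmod.symm
      push_cast at h3
      exact h3
    have h2 : 1 ≤ Nat.card (Sylow p (G ⧸ H)) := Nat.card_pos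
    have h3 : p ∣ Nat.card (Sylow p (G ⧸ H)) - 1 := by
      have : ((Nat.card (Sylow p (G ⧸ H)) - 1 : ℕ) : ℤ) = (Nat.card (Sylow p (G ⧸ H)) : ℤ) - 1 := by
        push_cast [Nat.cast_sub h2]
        ring
      rw [← this] at h1
      exact_mod_cast h1
    obtain ⟨u, hn'⟩ := h3
    exact ⟨u, by rw [mul_comm u p]; omega⟩
  have hnd' : NoDivisor p u := by
    intro u' hu' hu'u
    have hdv : (1 + u * p) ∣ 1 + n * p := by
      rw [← hu, ← hv]
      exact hdvd
    have hle : 1 + u * p ≤ 1 + n * p := Nat.le_of_dvd (by positivity) hdv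
    have hun : u ≤ n := by
      by_contra hlt
      have : n * p < u * p := Nat.mul_lt_mul_of_pos_right (by omega) hpr.pos
      omega
    rcases Nat.eq_or_lt_of_le hun with h | h
    · rw [h] at hu'u ⊢
      exact hnd u' hu' hu'u
    · exfalso
      exact hnd u (by omega) h (hdv.trans (Dvd.intro_left _ rfl))
  exact brauer_noDivisor_perfect hperfΓ hcoreΓ Q hQ hu hnd'

end Cfsg.Agent.Lib.Small.BD
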