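import Mathlib
import Cfsg.Agent.Lib.Small.BrauerOrbit
import Cfsg.Agent.Lib.Char.Burnside
import Cfsg.Agent.Lib.Blocks.PrincipalDegrees

/-! No nontrivial character of `ℓ`-power degree in the principal `ℓ`-block of a simple group,
and self-centralizing primes for groups of order `p^a q^b r`. -/

set_option autoImplicit false
set_option linter.unusedSectionVars false
set_option linter.style.haveILetI false

namespace Cfsg.Agent.Lib.Small.BD

open Cfsg Cfsg.Agent.Lib.Char Cfsg.Agent.Lib.Blocks Subgroup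
open scoped ComplexConjugate

universe u

variable {G : Type u} [Group G] [Fintype G]

/-- A character of a simple group takes an element to an element of norm the degree only at the identity. -/
theorem eq_one_of_norm_eq [IsSimpleGroup G] (hnc : ¬ IsMulCommutative G) {χ : IrrCharacter G} (hχ1 : χ ≠ one' G) {g : G}
    (h1 : ‖(χ : G → ℂ) g‖ = (charDegree (χ : G → ℂ) : ℝ)) : g = 1 := by
  classical
  have hcenter : ∀ z : G, (∀ x : G, x * z = z * x) → z = 1 := by
    intro z hz
    have hN : (Subgroup.center G).Normal := inferInstance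
    rcases hN.eq_bot_or_eq_top with h | h
    · have hzc : z ∈ Subgroup.center G := Subgroup.mem_center_iff.mpr hz
      rw [h] at hzc
      simpa using hzc
    · exfalso
      apply hnc
      refine ⟨⟨fun a b => ?_⟩⟩
      have ha : a ∈ Subgroup.center G := by rw [h]; trivial
      exact (Subgroup.mem_center_iff.mp ha b).symm
  obtain ⟨n, ρ, hirr, hρ⟩ := χ.2
  have hd : ((χ : G → ℂ) 1) = (charDegree (χ : G → ℂ) : ℂ) := apply_one_eq_charDegree (IsIrrCharacter.isCharacter χ.2)
  have hfin : Module.finrank ℂ (Fin n → ℂ) = charDegree (χ : G → ℂ) := by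
    have h2 : ρ.character 1 = (Module.finrank ℂ (Fin n → ℂ) : ℂ) := Representation.char_one ρ
    rw [hρ, hd] at h2
    exact_mod_cast h2.symm
  have h1' : ‖ρ.character g‖ = (Module.finrank ℂ (Fin n → ℂ) : ℝ) := by rw [hρ, hfin]; exact h1
  obtain ⟨ω, hω⟩ := (norm_character_eq_finrank_iff ρ g).mp h1'
  apply hcenter
  intro x
  have hcomm' : ρ (x * g) = ρ (g * x) := by
    rw [map_mul, map_mul, hω]
    ext v
    simp
  have hcm : (χ : G → ℂ) (x * g * (g * x)⁻¹) = (χ : G → ℂ) 1 := by
    rw [← hρ, Representation.char_one]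
    apply (character_eq_finrank_iff ρ _).mpr
    rw [map_mul, hcomm', ← map_mul, mul_inv_cancel, map_one]
    rfl
  have hcm' := faithful_irr hχ1 hcm
  exact mul_inv_eq_one.mp hcm'

/-- There is no nontrivial character of `ℓ`-power degree in the principal `ℓ`-block of a simple group. -/
theorem false_of_principal_prime_pow_degree [IsSimpleGroup G] (hnc : ¬ IsMulCommutative G) {ℓ : ℕ} [hℓ : Fact ℓ.Prime] {M : Ideal AlgInt}
    (hM : IsPModular ℓ M) (hd : ℓ ∣ Nat.card G) {χ : IrrCharacter G} (hχ : χ ∈ principalBlock M G) (hχ1 : χ ≠ one' G) {i : ℕ}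
    (hi : charDegree (χ : G → ℂ) = ℓ ^ i) : False := by
  classical
  obtain ⟨T⟩ : Nonempty (Sylow ℓ G) := inferInstance
  have hnt : Nontrivial (T : Subgroup G) := by
    haveI : Fact (Nat.Prime ℓ) := hℓ
    have h1 : ℓ ∣ Nat.card (T : Subgroup G) := by
      have h2 := T.card_eq_multiplicity
      rw [h2]
      exact dvd_pow_self ℓ (by
        have := (hℓ.out.factorization_pos_of_dvd Nat.card_pos.ne' hd)
        omega)
    apply Finite.one_lt_card_iff_nontrivial.mp
    have := Nat.le_of_dvd Nat.card_pos h1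
    have := hℓ.out.one_lt
    omega
  haveI : Nontrivial (center (T : Subgroup G)) := IsPGroup.center_nontrivial T.isPGroup'
  obtain ⟨z, hz⟩ := exists_ne (1 : center (T : Subgroup G))
  have hz1 : (((z : center (T : Subgroup G)) : (T : Subgroup G)) : G) ≠ 1 := by
    intro e
    apply hz
    apply Subtype.ext
    apply Subtype.ext
    exact e
  set g : G := (((z : center (T : Subgroup G)) : (T : Subgroup G)) : G) with hg
  have hTC : (T : Subgroup G) ≤ centralizer ({g} : Set G) := by
    intro s hs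
    rw [mem_centralizer_singleton_iff]
    have h3 := (Subgroup.mem_center_iff.mp z.2) (⟨s, hs⟩ : (T : Subgroup G))
    exact congrArg Subtype.val h3
  have hidx : ¬ ℓ ∣ (centralizer ({g} : Set G)).index := by
    intro h1
    have h2 : (centralizer ({g} : Set G)).index ∣ (T : Subgroup G).index := Subgroup.index_dvd_of_le hTC
    exact T.not_dvd_index (h1.trans h2)
  have hχd : (χ : G → ℂ) 1 = (charDegree (χ : G → ℂ) : ℂ) := apply_one_eq_charDegree (IsIrrCharacter.isCharacter χ.2)
  have hcop : Nat.Coprime (charDegree (χ : G → ℂ)) (centralizer ({g} : Set G)).index := by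
    rw [hi]
    exact Nat.Coprime.pow_left i ((Nat.Prime.coprime_iff_not_dvd hℓ.out).mpr hidx)
  rcases apply_eq_zero_or_norm_eq_of_coprime χ.2 hχd g hcop with h0 | h1
  · have h2 := hχ g
    unfold centralChar at h2
    rw [h0] at h2
    simp only [mul_one, div_one, mul_zero, zero_div, sub_zero] at h2
    exact natCast_not_memLocalIdeal hM hidx h2
  · exact hz1 (eq_one_of_norm_eq hnc hχ1 h1)

/-- A strengthening of `exists_principal_not_dvd`. -/
theorem exists_principal_not_dvd_value {p : ℕ} [hp : Fact p.Prime] {M : Ideal AlgInt} (hM : IsPModular p M) {r : ℕ} (hr : r.Prime) {y : G}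
    (hy : p ∣ orderOf y) :
    ∃ χ ∈ principalBlock M G, χ ≠ one' G ∧ ¬ r ∣ charDegree (χ : G → ℂ) ∧ (χ : G → ℂ) y ≠ 0 := by
  classical
  have := isPrime_of_modular hM
  by_contra hcon
  push Not at hcon
  have h0 := weak_block_orthogonality hM (H8Group.isPBlock_principalBlock M G) (x := (1 : G)) (y := y)
    (by simp [(Fact.out : p.Prime).one_lt.ne', orderOf_one]) hy
  rw [finsum_mem_eq_sum_indic] at h0
  have hone : oneIrr G ∈ principalBlock M G := H8Group.one_mem_principalBlock
  rw [← Finset.add_sum_erase _ _ (Finset.mem_univ (oneIrr G))] at h0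
  have hterm : ∀ χ ∈ Finset.univ.erase (oneIrr G), ∃ z : ℂ, IsIntegral ℤ z ∧
      indic (principalBlock M G) χ * ((χ : G → ℂ) 1 * conj ((χ : G → ℂ) y)) = (r : ℂ) * z := by
    intro χ hχ
    by_cases hχB : χ ∈ principalBlock M G
    · have hne : χ ≠ one' G := (Finset.mem_erase.mp hχ).1
      by_cases hrd : r ∣ charDegree (χ : G → ℂ)
      · obtain ⟨d, hd⟩ := hrd
        refine ⟨(d : ℂ) * conj ((χ : G → ℂ) y), ?_, ?_⟩
        · apply IsIntegral.mul (isIntegral_natCast _)
          have : conj ((χ : G → ℂ) y) = (χ : G → ℂ) y⁻¹ := (irr_apply_inv χ y).symm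
          rw [this]
          exact irr_isIntegral χ _
        · rw [indic_apply_of_mem hχB, apply_one_eq_charDegree (irr_isCharacter χ), hd]
          push_cast
          ring
      · refine ⟨0, isIntegral_zero, ?_⟩
        rw [hcon χ hχB hne hrd]
        simp
    · refine ⟨0, isIntegral_zero, ?_⟩
      rw [indic_apply_of_notMem hχB]
      simp
  choose! z hz1 hz2 using hterm
  rw [Finset.sum_congr rfl hz2, ← Finset.mul_sum] at h0
  have hint : IsIntegral ℤ (∑ χ ∈ Finset.univ.erase (oneIrr G), z χ) :=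
    IsIntegral.sum _ hz1
  have hone' : indic (principalBlock M G) (oneIrr G) *
      (((oneIrr G : IrrCharacter G) : G → ℂ) 1 * conj (((oneIrr G : IrrCharacter G) : G → ℂ) y)) = 1 := by
    rw [indic_apply_of_mem hone]
    simp [oneIrr]
  rw [hone'] at h0
  have hr0 : (r : ℂ) ≠ 0 := by exact_mod_cast hr.ne_zero
  have hval : (∑ χ ∈ Finset.univ.erase (oneIrr G), z χ) = -((r : ℂ)⁻¹) := by
    field_simp
    linear_combination h0
  obtain ⟨m, hm⟩ := int_of_isIntegral_of_rat hint ⟨-((r : ℚ)⁻¹), by rw [hval]; push_cast; ring⟩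
  rw [hval] at hm
  have h1 : (r : ℂ) * (-(m : ℂ)) = 1 := by
    have : (r : ℂ)⁻¹ = -(m : ℂ) := by rw [← hm]; ring
    rw [← this]; field_simp
  have h2 : (r : ℤ) * (-m) = 1 := by exact_mod_cast h1
  have h3 : (r : ℤ) ∣ 1 := ⟨-m, h2.symm⟩
  have h4 : r ∣ 1 := by exact_mod_cast h3
  exact hr.not_dvd_one h4

/-- In a simple group of order `ℓ^α ℓ'^β r`, no element of order `ℓ` commutes with one of order `r`. -/
theorem false_of_commuting [IsSimpleGroup G] (hnc : ¬ IsMulCommutative G) {ℓ ℓ' r α β : ℕ} (hℓ : ℓ.Prime) (hℓ' : ℓ'.Prime) (hr : r.Prime)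
    (h1 : ℓ ≠ ℓ') (h2 : ℓ ≠ r) (h3 : ℓ' ≠ r) (hcard : Nat.card G = ℓ ^ α * ℓ' ^ β * r) {w y : G} (hw : orderOf w = ℓ)
    (hy : orderOf y = r) (hc : Commute w y) : False := by
  classical
  haveI : Fact ℓ.Prime := ⟨hℓ⟩
  obtain ⟨M, hM⟩ := exists_isPModular hℓ
  have hcop : Nat.Coprime (orderOf w) (orderOf y) := by
    rw [hw, hy]
    exact (Nat.coprime_primes hℓ hr).mpr h2
  have hord : orderOf (w * y) = ℓ * r := by
    rw [hc.orderOf_mul_eq_mul_orderOf_of_coprime hcop, hw, hy]
  obtain ⟨χ, hχ, hχ1, hdvd, hval⟩ := exists_principal_not_dvd_value hM hℓ' (y := w * y) (by rw [hord]; exact dvd_mul_right _ _)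
  have hℓr : Nat.Coprime ℓ r := (Nat.coprime_primes hℓ hr).mpr h2
  have hℓ'r : Nat.Coprime ℓ' r := (Nat.coprime_primes hℓ' hr).mpr h3
  have hrd : ¬ r ∣ charDegree (χ : G → ℂ) := by
    intro hd
    apply hval
    refine apply_eq_zero_of_defect_zero χ.2 hr (pow_factorization_dvd_of_sq hr Nat.card_pos.ne' ?_ hd) (by rw [hord]; exact dvd_mul_left _ _)
    rw [hcard, pow_two]
    intro h5
    have h6 : r ∣ ℓ ^ α * ℓ' ^ β := by
      have hr0 : 0 < r := hr.pos
      exact Nat.dvd_of_mul_dvd_mul_right hr0 h5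
    have h7 : Nat.Coprime r (ℓ ^ α * ℓ' ^ β) :=
      Nat.Coprime.mul_right (Nat.Coprime.pow_right _ hℓr.symm) (Nat.Coprime.pow_right _ hℓ'r.symm)
    have := Nat.Coprime.eq_one_of_dvd h7 h6
    exact hr.one_lt.ne' this
  have hdeg := charDegree_dvd_card χ.2
  rw [hcard] at hdeg
  have h4 : charDegree (χ : G → ℂ) ∣ ℓ ^ α * ℓ' ^ β :=
    Nat.Coprime.dvd_of_dvd_mul_right ((Nat.Prime.coprime_iff_not_dvd hr).mpr hrd).symm hdeg
  have h5 : charDegree (χ : G → ℂ) ∣ ℓ ^ α :=
    Nat.Coprime.dvd_of_dvd_mul_right (Nat.Coprime.pow_right _ ((Nat.Prime.coprime_iff_not_dvd hℓ').mpr hdvd).symm) h4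
  obtain ⟨i, -, hi⟩ := (Nat.dvd_prime_pow hℓ).mp h5
  exact false_of_principal_prime_pow_degree hnc hM
    (hw ▸ orderOf_dvd_natCard w) hχ hχ1 hi

/-- The centralizer of an element of order `r` in a simple group of order `p^a q^b r`. -/
theorem centralizer_eq_zpowers_of_card [IsSimpleGroup G] {p q r a b : ℕ} (hp : p.Prime) (hq : q.Prime) (hr : r.Prime)
    (hpq : p ≠ q) (hpr : p ≠ r) (hqr : q ≠ r) (hcard : Nat.card G = p ^ a * q ^ b * r) {x : G} (hx : orderOf x = r) :
    centralizer ({x} : Set G) = zpowers x := by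
  classical
  have hle : zpowers x ≤ centralizer ({x} : Set G) := by
    intro y hy
    rw [mem_centralizer_singleton_iff]
    obtain ⟨k, rfl⟩ := Subgroup.mem_zpowers_iff.mp hy
    exact (Commute.refl x).zpow_left k
  by_cases hnc : IsMulCommutative G
  · -- the group has prime order
    have hcomm : ∀ a b : G, a * b = b * a := fun a b => by
      have := hnc.is_comm.comm a b
      exact this
    letI cg : CommGroup G := { (inferInstance : Group G) with mul_comm := hcomm }
    have hpc : (Nat.card G).Prime := IsSimpleGroup.prime_card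
    have hxd : r ∣ Nat.card G := hx ▸ orderOf_dvd_natCard x
    have hrc : Nat.card G = r := ((Nat.prime_dvd_prime_iff_eq hr hpc).mp hxd).symm
    have h1 : zpowers x = ⊤ := by
      rw [← Subgroup.card_eq_iff_eq_top, Nat.card_zpowers, hx, hrc]
    rw [h1]
    exact top_le_iff.mp (h1 ▸ hle)
  -- the general case
  by_contra hne
  have hlt : Nat.card (zpowers x) < Nat.card (centralizer ({x} : Set G)) := by
    apply Nat.lt_of_le_of_ne (Nat.card_le_card_of_injective _ (Subgroup.inclusion_injective hle))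
    intro h
    exact hne (Subgroup.eq_of_le_of_card_ge hle h.ge).symm
  rw [Nat.card_zpowers, hx] at hlt
  obtain ⟨c, hc⟩ : r ∣ Nat.card (centralizer ({x} : Set G)) := by
    have := Subgroup.card_dvd_of_le hle
    rwa [Nat.card_zpowers, hx] at this
  have hc1 : 1 < c := by
    by_contra hc2
    have : c ≤ 1 := by omega
    have : r * c ≤ r * 1 := Nat.mul_le_mul_left r this
    omega
  obtain ⟨ℓ, hℓ, hℓc⟩ := Nat.exists_prime_and_dvd (show c ≠ 1 by omega)
  have hdvd : c ∣ p ^ a * q ^ b := by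
    have h1 := Subgroup.card_subgroup_dvd_card (centralizer ({x} : Set G))
    rw [hc, hcard, mul_comm r c] at h1
    exact Nat.dvd_of_mul_dvd_mul_right hr.pos h1
  have hℓ2 : ℓ ∣ p ^ a * q ^ b := hℓc.trans hdvd
  haveI : Fact ℓ.Prime := ⟨hℓ⟩
  obtain ⟨w, hw⟩ := exists_prime_orderOf_dvd_card' ℓ (by rw [hc]; exact hℓc.trans (dvd_mul_left _ _))
  have hw' : orderOf (w : G) = ℓ := by rw [Subgroup.orderOf_coe, hw]
  have hcomm : Commute (w : G) x := mem_centralizer_singleton_iff.mp w.2
  rcases (hℓ.dvd_mul).mp hℓ2 with h3 | h3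
  · have h4 := (Nat.prime_dvd_prime_iff_eq hℓ hp).mp (hℓ.dvd_of_dvd_pow h3)
    subst h4
    exact false_of_commuting hnc hℓ hq hr hpq hpr hqr hcard hw' hx hcomm
  · have h4 := (Nat.prime_dvd_prime_iff_eq hℓ hq).mp (hℓ.dvd_of_dvd_pow h3)
    subst h4
    exact false_of_commuting hnc (α := b) (β := a) hℓ hp hr hpq.symm hqr hpr (by rw [hcard]; ring) hw' hx hcomm

end Cfsg.Agent.Lib.Small.BD
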