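import Mathlib

/-! Tools for nonexistence proofs for simple groups: actions on cosets, sign, Sylow numbers. -/

set_option autoImplicit false

open scoped Pointwise

namespace Cfsg.Agent.Lib.Small

variable {G : Type*} [Group G]

/-- a simple group which is not commutative: every hom to a commutative group is trivial -/
theorem map_eq_one_of_simple_noncomm [IsSimpleGroup G] (hG : ¬ IsMulCommutative G)
    {A : Type*} [CommGroup A] (f : G →* A) (g : G) : f g = 1 := by
  rcases (IsSimpleGroup.eq_bot_or_eq_top_of_normal f.ker (MonoidHom.normal_ker f)) with h | h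
  · exfalso
    apply hG
    have hinj : Function.Injective f := (MonoidHom.ker_eq_bot_iff f).mp h
    refine ⟨⟨fun a b => hinj ?_⟩⟩
    simp [mul_comm]
  · have : g ∈ f.ker := by rw [h]; trivial
    exact this

/-- action on cosets is faithful for a simple group -/
theorem toPerm_injective [IsSimpleGroup G] (H : Subgroup G) (hH : H ≠ ⊤) :
    Function.Injective (MulAction.toPermHom G (G ⧸ H)) := by
  rw [← MonoidHom.ker_eq_bot_iff]
  rcases IsSimpleGroup.eq_bot_or_eq_top_of_normal _ (MonoidHom.normal_ker (MulAction.toPermHom G (G ⧸ H))) with h | h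
  · exact h
  · exfalso
    apply hH
    rw [eq_top_iff]
    intro g _
    have hg : g ∈ (MulAction.toPermHom G (G ⧸ H)).ker := by rw [h]; trivial
    have h1 : (MulAction.toPermHom G (G ⧸ H)) g = 1 := hg
    have h2 : g • ((1 : G) : G ⧸ H) = ((1 : G) : G ⧸ H) := by
      have := congrArg (fun σ : Equiv.Perm (G ⧸ H) => σ ((1 : G) : G ⧸ H)) h1
      simpa using this
    rw [MulAction.Quotient.smul_coe, smul_eq_mul, mul_one, QuotientGroup.eq] at h2
    simpa using h2

/-- an injective hom from a simple noncommutative group to `Perm α` lands in the alternating group -/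
theorem sign_eq_one [IsSimpleGroup G] (hG : ¬ IsMulCommutative G) {α : Type*} [Fintype α] [DecidableEq α]
    (f : G →* Equiv.Perm α) (g : G) : Equiv.Perm.sign (f g) = 1 :=
  map_eq_one_of_simple_noncomm hG (Equiv.Perm.sign.comp f) g

/-- Embedding Theorem (S0991) -/
theorem exists_injective_alternating [IsSimpleGroup G] (hG : ¬ IsMulCommutative G) [Finite G]
    (H : Subgroup G) (hH : H ≠ ⊤) :
    ∃ f : G →* ↥(alternatingGroup (Fin H.index)), Function.Injective f := by
  classical
  have hfin : H.FiniteIndex := inferInstance
  have hcard : Nat.card (G ⧸ H) = H.index := rfl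
  haveI : Fintype (G ⧸ H) := Fintype.ofFinite _
  have e : (G ⧸ H) ≃ Fin H.index := Finite.equivFinOfCardEq hcard
  let φ : Equiv.Perm (G ⧸ H) ≃* Equiv.Perm (Fin H.index) := e.permCongrHom
  let F : G →* Equiv.Perm (Fin H.index) := φ.toMonoidHom.comp (MulAction.toPermHom G (G ⧸ H))
  have hF : Function.Injective F := φ.injective.comp (toPerm_injective H hH)
  have hmem : ∀ g, F g ∈ alternatingGroup (Fin H.index) := by
    intro g
    rw [Equiv.Perm.mem_alternatingGroup]
    exact sign_eq_one hG F g
  refine ⟨F.codRestrict _ hmem, ?_⟩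
  intro a b hab
  apply hF
  have := congrArg Subtype.val hab
  exact this

/-- `2 |G| ∣ k!` whenever `G` simple noncommutative with a proper subgroup of index `k`. -/
theorem two_mul_card_dvd_factorial [IsSimpleGroup G] (hG : ¬ IsMulCommutative G) [Finite G]
    (H : Subgroup G) (hH : H ≠ ⊤) : 2 * Nat.card G ∣ (H.index).factorial := by
  classical
  obtain ⟨f, hf⟩ := exists_injective_alternating hG H hH
  have hk : 2 ≤ H.index := by
    have h1 : H.index ≠ 0 := Subgroup.index_ne_zero_of_finite
    have h2 : H.index ≠ 1 := by
      intro h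
      exact hH (Subgroup.index_eq_one.mp h)
    omega
  have : Nontrivial (Fin H.index) := Fin.nontrivial_iff_two_le.mpr hk
  have h1 : Nat.card G ∣ Nat.card (alternatingGroup (Fin H.index)) :=
    Subgroup.card_dvd_of_injective f hf
  have h2 : Nat.card (alternatingGroup (Fin H.index)) * 2 = (H.index).factorial := by
    have h3 := (alternatingGroup (Fin H.index)).card_mul_index
    rw [alternatingGroup.index_eq_two, Nat.card_perm] at h3
    simpa using h3
  rw [← h2, mul_comm 2]
  exact Nat.mul_dvd_mul_right h1 2

theorem not_comm_of_not_prime [IsSimpleGroup G] (h : ¬ (Nat.card G).Prime) :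
    ¬ IsMulCommutative G := by
  intro hc
  letI : CommGroup G := { (inferInstance : Group G) with mul_comm := fun a b => hc.is_comm.comm a b }
  exact h IsSimpleGroup.prime_card

section Sylow
variable [Finite G]

/-- the Sylow number is not one in a simple group with proper nontrivial Sylow -/
theorem card_sylow_ne_one [IsSimpleGroup G] {p : ℕ} [hp : Fact p.Prime] (hdvd : p ∣ Nat.card G)
    (hnp : ∀ k : ℕ, Nat.card G ≠ p ^ k) : Nat.card (Sylow p G) ≠ 1 := by
  intro h1
  obtain ⟨P⟩ : Nonempty (Sylow p G) := inferInstance
  haveI : Subsingleton (Sylow p G) := (Nat.card_eq_one_iff_unique.mp h1).1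
  have hn := Sylow.normal_of_subsingleton P
  rcases IsSimpleGroup.eq_bot_or_eq_top_of_normal (P : Subgroup G) hn with h | h
  · -- P trivial contradicts p ∣ |G|
    have hc := Sylow.card_eq_multiplicity P
    rw [h, Subgroup.card_bot] at hc
    have : (Nat.card G).factorization p ≠ 0 := by
      intro h0
      have hne : Nat.card G ≠ 0 := Nat.card_pos.ne'
      have := hp.out.factorization_pos_of_dvd hne hdvd
      omega
    have h2 : p ^ (Nat.card G).factorization p = 1 := hc.symm
    rw [Nat.pow_eq_one] at h2
    rcases h2 with h2 | h2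
    · exact hp.out.one_lt.ne' h2
    · exact this h2
  · have hc := Sylow.card_eq_multiplicity P
    rw [h, Subgroup.card_top] at hc
    exact hnp _ hc

/-- number of Sylow `p`: conditions -/
theorem card_sylow_mod_dvd {p : ℕ} [hp : Fact p.Prime] {a m : ℕ} (hG : Nat.card G = p ^ a * m)
    (hpm : ¬ p ∣ m) : Nat.card (Sylow p G) % p = 1 ∧ Nat.card (Sylow p G) ∣ m := by
  constructor
  · have h := card_sylow_modEq_one p G
    rw [Nat.ModEq, Nat.mod_eq_of_lt hp.out.one_lt] at h
    exact h
  · obtain ⟨P⟩ : Nonempty (Sylow p G) := inferInstance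
    have h1 := P.card_dvd_index
    have h2 : (P : Subgroup G).index = m := by
      have h3 := (P : Subgroup G).card_mul_index
      have h4 := Sylow.card_eq_multiplicity P
      rw [hG] at h3
      have hm0 : m ≠ 0 := by
        intro h
        apply hpm
        rw [h]; exact dvd_zero p
      have h5 : (Nat.card G).factorization p = a := by
        rw [hG, Nat.factorization_mul (pow_ne_zero _ hp.out.ne_zero) hm0, Nat.factorization_pow]
        simp [hp.out.factorization, Nat.factorization_eq_zero_of_not_dvd hpm]
      rw [h4, h5] at h3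
      exact Nat.eq_of_mul_eq_mul_left (pow_pos hp.out.pos a) h3
    rwa [h2] at h1

/-- the Sylow number is `|G : N(P)|`, proper if different from one -/
theorem two_mul_card_dvd_factorial_sylow [IsSimpleGroup G] (hG : ¬ IsMulCommutative G)
    {p : ℕ} [hp : Fact p.Prime] (hne : Nat.card (Sylow p G) ≠ 1) :
    2 * Nat.card G ∣ (Nat.card (Sylow p G)).factorial := by
  obtain ⟨P⟩ : Nonempty (Sylow p G) := inferInstance
  have h1 := P.card_eq_index_normalizer
  rw [h1] at hne ⊢
  refine two_mul_card_dvd_factorial hG _ ?_
  intro h
  apply hne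
  rw [h, Subgroup.index_top]

end Sylow

end Cfsg.Agent.Lib.Small
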