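import Mathlib
import Cfsg.Agent.Lib.Small.Syl21a

/-! No group has exactly 21 Sylow 5-subgroups, part 2: fixed points of elements of prime order. -/

set_option autoImplicit false

namespace Cfsg.Agent.Lib.Small.Syl21

open Subgroup MulAction

variable {G : Type*} [Group G] [Finite G]

theorem mem_of_pow_mem_of_coprime {H : Subgroup G} {g : G} {n : ℕ} (h : g ^ n ∈ H)
    (hc : Nat.Coprime n (orderOf g)) : g ∈ H := by
  by_cases h1 : orderOf g = 1
  · rw [orderOf_eq_one_iff.mp h1]
    exact H.one_mem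
  have hpos : 0 < orderOf g := orderOf_pos g
  obtain ⟨m, -, hm⟩ := Nat.exists_mul_mod_eq_one_of_coprime hc (by omega)
  have h2 : g ^ (n * m) = g := by
    rw [← pow_mod_orderOf, hm, pow_one]
  rw [← h2, pow_mul]
  exact H.pow_mem h _

theorem pow_four_mem_centralizer (α : Sylow 5 G) (hα : Nat.card (α : Subgroup G) = 5) {g : G}
    (hg : g ∈ normalizer ((α : Subgroup G) : Set G)) :
    g ^ 4 ∈ centralizer ((α : Subgroup G) : Set G) := by
  haveI : IsCyclic (α : Subgroup G) := isCyclic_of_prime_card (p := 5) hα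
  have hc : Nat.card (MulAut (α : Subgroup G)) = 4 := by
    rw [IsCyclic.card_mulAut, hα]
    rfl
  let φ := Subgroup.normalizerMonoidHom (α : Subgroup G)
  have h1 : φ (⟨g, hg⟩ ^ 4) = 1 := by
    rw [map_pow, ← hc]
    exact pow_card_eq_one'
  have h2 : (⟨g, hg⟩ ^ 4 : normalizer ((α : Subgroup G) : Set G)) ∈ φ.ker := h1
  rw [Subgroup.normalizerMonoidHom_ker] at h2
  exact h2

theorem mem_centralizer_of_odd (α : Sylow 5 G) (hα : Nat.card (α : Subgroup G) = 5) {g : G}
    (hg : g ∈ normalizer ((α : Subgroup G) : Set G)) (hodd : Odd (orderOf g)) :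
    g ∈ centralizer ((α : Subgroup G) : Set G) := by
  apply mem_of_pow_mem_of_coprime (pow_four_mem_centralizer α hα hg) (n := 4)
  have : Nat.Coprime 2 (orderOf g) := (Nat.coprime_two_left).mpr hodd
  exact Nat.Coprime.pow_left 2 this

/-- An involution normalizing a group of order 5 centralizes or inverts it. -/
theorem involution_cases (α : Sylow 5 G) (hα : Nat.card (α : Subgroup G) = 5) {z : G}
    (hz : z ∈ normalizer ((α : Subgroup G) : Set G)) (hz2 : z * z = 1) :
    z ∈ centralizer ((α : Subgroup G) : Set G) ∨ ∀ a ∈ (α : Subgroup G), z * a * z⁻¹ = a⁻¹ := by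
  classical
  have hzinv : z⁻¹ = z := by
    rw [inv_eq_iff_mul_eq_one]; exact hz2
  haveI : Fact (Nat.Prime 5) := ⟨by norm_num⟩
  have hne : ((α : Subgroup G)) ≠ ⊥ := by
    intro h
    rw [h] at hα
    simp at hα
  obtain ⟨⟨a, ha⟩, ha1'⟩ := Subgroup.ne_bot_iff_exists_ne_one.mp hne
  have ha1 : a ≠ 1 := fun h => ha1' (Subtype.ext h)
  have hoa : orderOf a = 5 := SmallSimple.orderOf_eq_of_mem_sylow hα ha ha1
  have hz' := SmallSimple.eq_zpowers_of_card hα ha hoa
  have h1 : z * a * z⁻¹ ∈ (α : Subgroup G) := (mem_normalizer_iff.mp hz a).mp ha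
  rw [hz', mem_zpowers_iff_mem_range_orderOf] at h1
  obtain ⟨k, hk, hk2⟩ := Finset.mem_image.mp h1
  rw [Finset.mem_range, hoa] at hk
  -- k^2 = 1 mod 5
  have h2 : a = a ^ (k * k) := by
    have h3 : z * (z * a * z⁻¹) * z⁻¹ = a := by
      rw [hzinv]
      calc z * (z * a * z) * z = (z * z) * a * (z * z) := by group
        _ = a := by rw [hz2]; group
    rw [pow_mul, hk2, conj_pow, hk2, h3]
  have ha5 : a ^ 5 = 1 := by rw [← hoa]; exact pow_orderOf_eq_one a
  have hmem : ∀ x ∈ (α : Subgroup G), ∃ i : ℕ, x = a ^ i := by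
    intro x hx
    rw [hz', mem_zpowers_iff_mem_range_orderOf] at hx
    obtain ⟨i, -, hi⟩ := Finset.mem_image.mp hx
    exact ⟨i, hi.symm⟩
  interval_cases k
  · exfalso
    apply ha1
    simpa using hk2.symm
  · left
    rw [mem_centralizer_iff]
    intro x hx
    obtain ⟨i, rfl⟩ := hmem x hx
    have h5 : z * a * z⁻¹ = a := by rw [← hk2]; simp
    have h6 : Commute a z := by
      rw [Commute, SemiconjBy, eq_comm]
      rw [mul_inv_eq_iff_eq_mul] at h5
      exact h5
    exact (h6.pow_left i).eq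
  · exfalso
    have h3 : a ^ 3 = 1 := by
      have h4 : a ^ 4 = a := h2.symm
      have h5 : a ^ 4 = a ^ 3 * a := pow_succ a 3
      rw [h5] at h4
      exact mul_eq_right.mp h4
    have := orderOf_dvd_of_pow_eq_one h3
    rw [hoa] at this
    omega
  · exfalso
    have h3 : a ^ 3 = 1 := by
      have h4 : a ^ 9 = a := h2.symm
      have h5 : a ^ 9 = a ^ 5 * a ^ 3 * a := by group
      rw [h5, ha5, one_mul] at h4
      exact mul_eq_right.mp h4
    have := orderOf_dvd_of_pow_eq_one h3
    rw [hoa] at this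
    omega
  · right
    intro x hx
    obtain ⟨i, rfl⟩ := hmem x hx
    have h5 : z * a * z⁻¹ = a⁻¹ := by
      rw [← hk2, eq_inv_iff_mul_eq_one, ← pow_succ]
      exact ha5
    rw [← conj_pow, h5, inv_pow]

section Main

variable (h21 : Nat.card (Sylow 5 G) = 21) [IsSimpleGroup G]

include h21

theorem eq_of_order_five {α R : Sylow 5 G} {g : G} (hg : g ∈ (α : Subgroup G)) (hg1 : g ≠ 1)
    (hR : g • R = R) : R = α := by
  have h1 := SmallSimple.mem_of_mem_normalizer_sylow α R hg (smul_eq_iff.mp hR)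
  have h2 := SmallSimple.orderOf_eq_of_mem_sylow (card_sylow h21 α) hg hg1
  exact SmallSimple.sylow_eq_of_mem (card_sylow h21) h2 _ _ h1 hg

theorem mem_of_order_five {α : Sylow 5 G} {g : G} (hg : g • α = α) (ho : orderOf g = 5) :
    g ∈ (α : Subgroup G) := by
  obtain ⟨R, hR⟩ := SmallSimple.exists_sylow_of_orderOf ho
  exact SmallSimple.mem_of_mem_normalizer_sylow R α hR (smul_eq_iff.mp hg)

omit h21 [IsSimpleGroup G] in
theorem card_fix_le (g : G) [Finite (Sylow 5 G)] (h : Nat.card (Sylow 5 G) = 21) :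
    Nat.card (fixedBy (Sylow 5 G) g) ≤ 21 := by
  rw [← h]
  exact Finite.card_subtype_le _

theorem card_fix_ne {g : G} (hg : g ≠ 1) : Nat.card (fixedBy (Sylow 5 G) g) ≠ 21 := by
  intro h
  apply hg
  apply faithful h21
  have h1 : fixedBy (Sylow 5 G) g = Set.univ := by
    rw [Set.eq_univ_iff_ncard, ← Nat.card_coe_set_eq, h, h21]
  intro R
  have : R ∈ fixedBy (Sylow 5 G) g := by rw [h1]; trivial
  exact this

theorem modEq_of_mem_centralizer {α : Sylow 5 G} {g : G}
    (hg : g ∈ centralizer ((α : Subgroup G) : Set G)) :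
    Nat.card (fixedBy (Sylow 5 G) g) ≡ 1 [MOD 5] := by
  have hcomm : ∀ a ∈ (α : Subgroup G), a * g = g * a := fun a ha => mem_centralizer_iff.mp hg a ha
  apply card_inv_modEq_one (H := (α : Subgroup G)) α.isPGroup' (fixedBy (Sylow 5 G) g) ?_ α ?_ ?_ ?_
  · intro a R hR
    rw [mem_fixedBy] at hR ⊢
    show g • (a : G) • R = (a : G) • R
    rw [smul_smul, ← hcomm a a.2, mul_smul, hR]
  · rw [mem_fixedBy, smul_eq_iff]
    exact centralizer_le_normalizer _ hg
  · intro a
    exact smul_self a.2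
  · intro R hR hne
    by_contra hc
    push Not at hc
    exact hne (eq_of_le_normalizer (fun a ha => hc ⟨a, ha⟩)).symm

theorem modEq_of_prime {g : G} {q : ℕ} [Fact q.Prime] (ho : orderOf g = q) :
    21 ≡ Nat.card (fixedBy (Sylow 5 G) g) [MOD q] := by
  have hp : IsPGroup q (zpowers g) := by
    apply IsPGroup.of_card (n := 1)
    rw [Nat.card_zpowers, ho, pow_one]
  have h1 := card_inv_modEq (H := zpowers g) hp (Set.univ : Set (Sylow 5 G)) (fun _ _ _ => trivial)
  rw [Nat.card_congr (Equiv.Set.univ _), h21] at h1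
  have e : Nat.card {x : Sylow 5 G // x ∈ Set.univ ∧ ∀ h : zpowers g, h • x = x} =
      Nat.card (fixedBy (Sylow 5 G) g) := by
    apply Nat.card_congr
    refine Equiv.subtypeEquivRight ?_
    intro R
    constructor
    · rintro ⟨-, h⟩
      exact h ⟨g, mem_zpowers g⟩
    · intro h
      refine ⟨trivial, ?_⟩
      rintro ⟨x, hx⟩
      have h2 : zpowers g ≤ stabilizer G R := by
        rw [zpowers_le]
        exact h
      exact h2 hx
  rwa [e] at h1

theorem no_large_prime {α : Sylow 5 G} {g : G} {q : ℕ} (hq : q.Prime) (h7 : 7 ≤ q) (hg : g • α = α)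
    (ho : orderOf g = q) : False := by
  haveI := Fact.mk hq
  have hodd : Odd (orderOf g) := ho ▸ hq.odd_of_ne_two (by omega)
  have hC := mem_centralizer_of_odd α (card_sylow h21 α) (smul_eq_iff.mp hg) hodd
  have h1 := modEq_of_mem_centralizer h21 hC
  have h2 := modEq_of_prime h21 ho
  have h3 := card_fix_le g h21
  have hg1 : g ≠ 1 := by
    rintro rfl
    rw [orderOf_one] at ho
    omega
  have h4 := card_fix_ne h21 hg1
  generalize Nat.card (fixedBy (Sylow 5 G) g) = f at h1 h2 h3 h4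
  have h6 : q ∣ 21 - f := (Nat.modEq_iff_dvd' h3).mp h2.symm
  unfold Nat.ModEq at h1
  have h5 : 21 - f = 20 ∨ 21 - f = 15 ∨ 21 - f = 10 ∨ 21 - f = 5 := by omega
  have h8 : q ≤ 21 := (Nat.le_of_dvd (by omega) h6).trans (by omega)
  rcases h5 with h5 | h5 | h5 | h5 <;> rw [h5] at h6 <;> interval_cases q <;>
    first
    | omega
    | (revert hq; norm_num)

theorem inverting_fix_le {α : Sylow 5 G} {z : G}
    (hinv : ∀ a ∈ (α : Subgroup G), z * a * z⁻¹ = a⁻¹) :
    Nat.card (fixedBy (Sylow 5 G) z) ≤ 5 := by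
  classical
  have := Fintype.ofFinite (Sylow 5 G)
  let L : Finset (Sylow 5 G) := (Finset.univ.filter (· ∈ fixedBy (Sylow 5 G) z)).erase α
  have hαL : α ∉ L := Finset.notMem_erase _ _
  have hfix : ∀ δ ∈ L, z • δ = δ := by
    intro δ hδ
    exact (Finset.mem_filter.mp (Finset.mem_of_mem_erase hδ)).2
  have hsep : ∀ δ ∈ L, ∀ δ' ∈ L, ∀ h ∈ (α : Subgroup G), h • δ = δ' → δ = δ' := by
    intro δ hδ δ' hδ' h hh hh'
    by_cases h1 : h = 1
    · rw [← hh', h1, one_smul]
    exfalso
    have h2 : h⁻¹ • δ = δ' := by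
      have h3 : z • (h • δ) = (z * h * z⁻¹) • (z • δ) := by
        simp [mul_smul]
      rw [hh', hfix δ' hδ', hinv h hh, hfix δ hδ] at h3
      exact h3.symm
    have h3 : (h * h) • δ = δ := by
      rw [mul_smul, hh', ← h2, smul_inv_smul]
    have ho := SmallSimple.orderOf_eq_of_mem_sylow (card_sylow h21 α) hh h1
    have hne : h * h ≠ 1 := by
      intro hc
      have h4 : h ^ 2 = 1 := by rw [pow_two]; exact hc
      have := orderOf_dvd_of_pow_eq_one h4
      rw [ho] at this
      omega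
    have h5 := eq_of_order_five h21 (mul_mem hh hh) hne h3
    exact (Finset.ne_of_mem_erase hδ) h5
  have h1 := sep_card_le h21 α L hαL hsep
  have h2 : (Finset.univ.filter (· ∈ fixedBy (Sylow 5 G) z)).card - 1 ≤ L.card :=
    Finset.pred_card_le_card_erase
  rw [card_filter_mem] at h2
  omega

omit h21 [IsSimpleGroup G] in
theorem exists_conj_in (H : Subgroup G) (α γ : Sylow 5 G) (hα : (α : Subgroup G) ≤ H)
    (hγ : (γ : Subgroup G) ≤ H) : ∃ x ∈ H, x • α = γ := by
  obtain ⟨x, hx⟩ := MulAction.exists_smul_eq H (α.subtype hα) (γ.subtype hγ)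
  refine ⟨x, x.2, ?_⟩
  rw [Sylow.smul_subtype] at hx
  exact Sylow.subtype_injective hx

theorem fix_ne_eleven {α : Sylow 5 G} {z : G} (hz2 : z * z = 1)
    (hC : z ∈ centralizer ((α : Subgroup G) : Set G)) : Nat.card (fixedBy (Sylow 5 G) z) ≠ 11 := by
  intro h11
  let H : Subgroup G := centralizer ({z} : Set G)
  have hmemH : ∀ x : G, x * z = z * x → x ∈ H := by
    intro x hx
    rw [mem_centralizer_iff]
    intro y hy
    rw [Set.mem_singleton_iff.mp hy, hx]
  have hle : ∀ γ : Sylow 5 G, z • γ = γ → (γ : Subgroup G) ≤ H := by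
    intro γ hγ
    rcases involution_cases γ (card_sylow h21 γ) (smul_eq_iff.mp hγ) hz2 with h | h
    · intro x hx
      exact hmemH x (mem_centralizer_iff.mp h x hx)
    · have := inverting_fix_le h21 h
      omega
  have hα : z • α = α := smul_eq_iff.mpr (centralizer_le_normalizer _ hC)
  have horb : orbit H α = fixedBy (Sylow 5 G) z := by
    ext R
    constructor
    · rintro ⟨x, rfl⟩
      rw [mem_fixedBy]
      show z • (x : G) • α = (x : G) • α
      have h1 : (x : G) * z = z * x := by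
        have := mem_centralizer_iff.mp x.2 z (Set.mem_singleton z)
        exact this.symm
      rw [smul_smul, ← h1, mul_smul, hα]
    · intro hR
      obtain ⟨x, hx, hxR⟩ := exists_conj_in H α R (hle α hα) (hle R hR)
      exact ⟨⟨x, hx⟩, hxR⟩
  have h1 := card_orbit_mul (H := H) α
  rw [horb, h11] at h1
  have h2 : 11 ∣ Nat.card G := (Dvd.intro _ h1).trans (Subgroup.card_subgroup_dvd_card H)
  have h3 := SmallSimple.card_normalizer_mul_card_sylow 5 α
  rw [h21] at h3
  have h4 : 11 ∣ Nat.card (normalizer ((α : Subgroup G) : Set G)) := by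
    rw [← h3] at h2
    exact (Nat.Coprime.dvd_mul_right (by norm_num : Nat.Coprime 11 21)).mp h2
  haveI : Fact (Nat.Prime 11) := ⟨by norm_num⟩
  obtain ⟨g, hg⟩ := exists_prime_orderOf_dvd_card' 11 h4
  exact no_large_prime h21 (q := 11) (by norm_num) (by norm_num) (smul_eq_iff.mpr g.2)
    (by rw [Subgroup.orderOf_coe]; exact hg)

theorem involution_fix_eq_one {α : Sylow 5 G} {z : G} (hz1 : z ≠ 1) (hz2 : z * z = 1)
    (hC : z ∈ centralizer ((α : Subgroup G) : Set G)) : Nat.card (fixedBy (Sylow 5 G) z) = 1 := by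
  haveI : Fact (Nat.Prime 2) := ⟨Nat.prime_two⟩
  have ho : orderOf z = 2 := orderOf_eq_prime (by rw [pow_two]; exact hz2) hz1
  have h1 := modEq_of_mem_centralizer h21 hC
  have h2 := modEq_of_prime h21 ho
  have h3 := card_fix_le z h21
  have h4 := card_fix_ne h21 hz1
  have h5 := fix_ne_eleven h21 hz2 hC
  unfold Nat.ModEq at h1 h2
  omega

theorem order_three_fix_eq_six {α : Sylow 5 G} {w : G} (ho : orderOf w = 3)
    (hC : w ∈ centralizer ((α : Subgroup G) : Set G)) : Nat.card (fixedBy (Sylow 5 G) w) = 6 := by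
  haveI : Fact (Nat.Prime 3) := ⟨Nat.prime_three⟩
  have hw1 : w ≠ 1 := by
    rintro rfl
    rw [orderOf_one] at ho
    omega
  have h1 := modEq_of_mem_centralizer h21 hC
  have h2 := modEq_of_prime h21 ho
  have h3 := card_fix_le w h21
  have h4 := card_fix_ne h21 hw1
  unfold Nat.ModEq at h1 h2
  omega

theorem card_fix_of_mem {α : Sylow 5 G} {g : G} (hg : g ∈ (α : Subgroup G)) (hg1 : g ≠ 1) :
    Nat.card (fixedBy (Sylow 5 G) g) = 1 := by
  rw [Nat.card_eq_one_iff_unique]
  refine ⟨⟨?_⟩, ⟨⟨α, smul_self hg⟩⟩⟩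
  rintro ⟨x, hx⟩ ⟨y, hy⟩
  exact Subtype.ext ((eq_of_order_five h21 hg hg1 hx).trans (eq_of_order_five h21 hg hg1 hy).symm)

/-- A prime order element with a fixed point has at most six fixed points. -/
theorem fix_le_six {α : Sylow 5 G} {g : G} {q : ℕ} (hq : q.Prime) (ho : orderOf g = q)
    (hg : g • α = α) : Nat.card (fixedBy (Sylow 5 G) g) ≤ 6 := by
  have hN := smul_eq_iff.mp hg
  have hg1 : g ≠ 1 := by
    rintro rfl
    rw [orderOf_one] at ho
    exact hq.one_lt.ne ho
  by_cases h7 : 7 ≤ q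
  · exact (no_large_prime h21 hq h7 hg ho).elim
  have hcases : q = 2 ∨ q = 3 ∨ q = 5 := by
    have : q < 7 := by omega
    interval_cases q <;> first | omega | (revert hq; norm_num)
  rcases hcases with rfl | rfl | rfl
  · have hz2 : g * g = 1 := by rw [← pow_two, ← ho]; exact pow_orderOf_eq_one g
    rcases involution_cases α (card_sylow h21 α) hN hz2 with h | h
    · rw [involution_fix_eq_one h21 hg1 hz2 h]
      omega
    · have := inverting_fix_le h21 h
      omega
  · have hC := mem_centralizer_of_odd α (card_sylow h21 α) hN (by rw [ho]; decide)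
    rw [order_three_fix_eq_six h21 ho hC]
  · rw [card_fix_of_mem h21 (mem_of_order_five h21 hg ho) hg1]
    omega

end Main

end Cfsg.Agent.Lib.Small.Syl21
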