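import Mathlib
import Cfsg.Agent.Lib.Small.Syl21b

/-! No group has exactly 21 Sylow 5-subgroups, part 3: two-point stabilizers, the centralizer bound. -/

set_option autoImplicit false

namespace Cfsg.Agent.Lib.Small.Syl21

open Subgroup MulAction

variable {G : Type*} [Group G] [Finite G]

theorem exists_pow_prime (w : G) (hw : w ≠ 1) : ∃ (k q : ℕ), q.Prime ∧ orderOf (w ^ k) = q := by
  have h1 : orderOf w ≠ 1 := fun h => hw (orderOf_eq_one_iff.mp h)
  obtain ⟨q, hq, hqd⟩ := Nat.exists_prime_and_dvd h1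
  exact ⟨orderOf w / q, q, hq, orderOf_pow_orderOf_div (orderOf_pos w).ne' hqd⟩

theorem smul_pow_of_fix {w : G} (k : ℕ) {X : Type*} [MulAction G X] {x : X} (h : w • x = x) :
    w ^ k • x = x := by
  induction k with
  | zero => simp
  | succ n ih => rw [pow_succ, mul_smul, h, ih]

section Main

variable (h21 : Nat.card (Sylow 5 G) = 21)

/-- `α` and the orbit of `β`. -/
def six (α β : Sylow 5 G) : Set (Sylow 5 G) := insert α (orbit (α : Subgroup G) β)

include h21

theorem card_six {α β : Sylow 5 G} (hne : α ≠ β) : Nat.card (six α β) = 6 := by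
  rw [Nat.card_coe_set_eq, six, Set.ncard_insert_of_notMem, ← Nat.card_coe_set_eq, card_orbit_five h21 α β hne]
  · rintro ⟨a, ha⟩
    exact smul_ne_of_ne α β hne a.2 ha

variable [IsSimpleGroup G]

theorem fix_eq_six {α β : Sylow 5 G} (hne : α ≠ β) {w : G} (hw1 : w ≠ 1)
    (hC : w ∈ centralizer ((α : Subgroup G) : Set G)) (hβ : w • β = β) :
    fixedBy (Sylow 5 G) w = six α β := by
  have hα : w • α = α := smul_eq_iff.mpr (centralizer_le_normalizer _ hC)
  have hsub : six α β ⊆ fixedBy (Sylow 5 G) w := by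
    rintro R (rfl | ⟨a, rfl⟩)
    · exact hα
    · rw [mem_fixedBy]
      show w • (a : G) • β = (a : G) • β
      rw [smul_smul, ← mem_centralizer_iff.mp hC a a.2, mul_smul, hβ]
  obtain ⟨k, q, hq, ho⟩ := exists_pow_prime w hw1
  set w' := w ^ k with hw'
  have hC' : w' ∈ centralizer ((α : Subgroup G) : Set G) := pow_mem hC k
  have hα' : w' • α = α := smul_pow_of_fix k hα
  have hβ' : w' • β = β := smul_pow_of_fix k hβ
  have hw'1 : w' ≠ 1 := by
    intro h
    rw [h, orderOf_one] at ho
    exact hq.one_lt.ne ho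
  have hsub2 : fixedBy (Sylow 5 G) w ⊆ fixedBy (Sylow 5 G) w' := by
    intro R hR
    exact smul_pow_of_fix k hR
  have hcard6 := card_six h21 hne
  have hle6 : Nat.card (six α β) ≤ Nat.card (fixedBy (Sylow 5 G) w') :=
    Nat.card_mono (Set.toFinite _) (hsub.trans hsub2)
  have hq3 : q = 3 := by
    by_contra hq3
    by_cases h7 : 7 ≤ q
    · exact no_large_prime h21 hq h7 hα' ho
    have hcases : q = 2 ∨ q = 5 := by
      have : q < 7 := by omega
      interval_cases q <;> first | omega | (revert hq; norm_num)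
    rcases hcases with rfl | rfl
    · have hz2 : w' * w' = 1 := by rw [← pow_two, ← ho]; exact pow_orderOf_eq_one w'
      have := involution_fix_eq_one h21 hw'1 hz2 hC'
      omega
    · have h1 := mem_of_order_five h21 hα' ho
      have := card_fix_of_mem h21 h1 hw'1
      omega
  subst hq3
  have h6 := order_three_fix_eq_six h21 ho hC'
  have h7 : six α β = fixedBy (Sylow 5 G) w' := by
    apply Set.eq_of_subset_of_ncard_le (hsub.trans hsub2) _ (Set.toFinite _)
    rw [← Nat.card_coe_set_eq, ← Nat.card_coe_set_eq, hcard6, h6]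
  apply Set.Subset.antisymm _ hsub
  rw [h7]
  exact hsub2

/-- The two-point stabilizer in the centralizer has order 1 or 3. -/
theorem card_S {α β : Sylow 5 G} (hne : α ≠ β) :
    Nat.card (centralizer ((α : Subgroup G) : Set G) ⊓ normalizer ((β : Subgroup G) : Set G) : Subgroup G) = 1 ∨
    Nat.card (centralizer ((α : Subgroup G) : Set G) ⊓ normalizer ((β : Subgroup G) : Set G) : Subgroup G) = 3 := by
  classical
  have := Fintype.ofFinite (Sylow 5 G)
  set S : Subgroup G := centralizer ((α : Subgroup G) : Set G) ⊓ normalizer ((β : Subgroup G) : Set G) with hS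
  let A : Finset (Sylow 5 G) := Finset.univ.filter (· ∉ six α β)
  have hA : A.card = 15 := by
    have h1 := card_filter_mem (six α β)
    rw [card_six h21 hne] at h1
    have h2 := Finset.card_filter_add_card_filter_not (s := (Finset.univ : Finset (Sylow 5 G))) (· ∈ six α β)
    rw [h1, Finset.card_univ, ← Nat.card_eq_fintype_card, h21] at h2
    have h3 : A.card = (Finset.univ.filter (fun x => ¬ x ∈ six α β)).card := rfl
    omega
  have hfix : ∀ s ∈ S, s ≠ 1 → fixedBy (Sylow 5 G) s = six α β := by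
    intro s hs hs1
    exact fix_eq_six h21 hne hs1 hs.1 (smul_eq_iff.mpr hs.2)
  have h1 : Nat.card S ∣ A.card := by
    apply card_dvd_of_free (H := S) A
    · intro s R hR
      have hR' : R ∉ six α β := (Finset.mem_filter.mp hR).2
      refine Finset.mem_filter.mpr ⟨Finset.mem_univ _, ?_⟩
      by_cases hs1 : (s : G) = 1
      · have : s • R = R := by
          show (s : G) • R = R
          rw [hs1, one_smul]
        rw [this]
        exact hR'
      · intro hc
        rw [← hfix s s.2 hs1] at hc hR'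
        apply hR'
        rw [mem_fixedBy] at hc ⊢
        have h2 : (s : G) • ((s : G) • R) = (s : G) • R := hc
        exact smul_left_cancel _ h2
    · intro s R hR hsR
      have hR' : R ∉ six α β := (Finset.mem_filter.mp hR).2
      by_contra hs1
      have hs1' : (s : G) ≠ 1 := fun h => hs1 (Subtype.ext h)
      rw [← hfix s s.2 hs1'] at hR'
      exact hR' hsR
  have h2 : ¬ 5 ∣ Nat.card S := by
    intro h
    obtain ⟨g, hg⟩ := exists_prime_orderOf_dvd_card' 5 h
    have hg' : orderOf (g : G) = 5 := by rw [Subgroup.orderOf_coe]; exact hg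
    have h3 : (g : G) • α = α := smul_eq_iff.mpr (centralizer_le_normalizer _ g.2.1)
    have h4 := mem_of_order_five h21 h3 hg'
    have h5 : (g : G) ≠ 1 := by
      intro hc
      rw [hc, orderOf_one] at hg'
      omega
    exact hne (eq_of_order_five h21 h4 h5 (smul_eq_iff.mpr g.2.2)).symm
  rw [hA] at h1
  have h3 : Nat.card S ∈ Nat.divisors 15 := Nat.mem_divisors.mpr ⟨h1, by norm_num⟩
  have h4 : Nat.divisors 15 = {1, 3, 5, 15} := by decide
  rw [h4] at h3
  simp only [Finset.mem_insert, Finset.mem_singleton] at h3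
  rcases h3 with h3 | h3 | h3 | h3
  · exact Or.inl h3
  · exact Or.inr h3
  · exact absurd (by rw [h3]) h2
  · exact absurd (by rw [h3]; norm_num) h2

omit h21 [IsSimpleGroup G] in
theorem card_stab_sub (H : Subgroup G) (R : Sylow 5 G) :
    Nat.card (stabilizer H R) = Nat.card (H ⊓ normalizer ((R : Subgroup G) : Set G) : Subgroup G) := by
  have h1 : stabilizer H R = (normalizer ((R : Subgroup G) : Set G)).subgroupOf H := by
    ext x
    rw [mem_stabilizer_iff, mem_subgroupOf]
    exact smul_eq_iff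
  rw [h1, ← Nat.card_congr (Subgroup.subgroupOfEquivOfLe (inf_le_left : H ⊓ normalizer ((R : Subgroup G) : Set G) ≤ H)).toEquiv,
    Subgroup.inf_subgroupOf_left]

omit [IsSimpleGroup G] in
theorem card_orbit_le {H : Subgroup G} {α β : Sylow 5 G} (hne : α ≠ β)
    (hH : H ≤ normalizer ((α : Subgroup G) : Set G)) : Nat.card (orbit H β) ≤ 20 := by
  have h4 : orbit H β ⊆ ({α}ᶜ : Set (Sylow 5 G)) := by
    rintro _ ⟨a, rfl⟩ h
    apply hne
    have h5 : (a : G) • β = α := h
    have h6 : (a : G) • α = α := smul_eq_iff.mpr (hH a.2)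
    have h7 : (a : G) • β = (a : G) • α := h5.trans h6.symm
    exact (smul_left_cancel _ h7).symm
  have h5 := Nat.card_mono (Set.toFinite _) h4
  have h6 : Nat.card (({α}ᶜ : Set (Sylow 5 G))) = 20 := by
    rw [Nat.card_coe_set_eq, Set.ncard_compl, Set.ncard_singleton, h21]
  omega

omit [IsSimpleGroup G] in
theorem card_centralizer_le_S {α β : Sylow 5 G} (hne : α ≠ β) :
    Nat.card (centralizer ((α : Subgroup G) : Set G)) ≤
      20 * Nat.card (centralizer ((α : Subgroup G) : Set G) ⊓ normalizer ((β : Subgroup G) : Set G) : Subgroup G) := by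
  have h1 := card_orbit_mul (H := centralizer ((α : Subgroup G) : Set G)) β
  rw [card_stab_sub] at h1
  rw [← h1]
  exact Nat.mul_le_mul_right _ (card_orbit_le h21 hne (centralizer_le_normalizer _))

omit h21 [IsSimpleGroup G] in
theorem card_centralizer_le_conj (α : Sylow 5 G) (x : G) :
    Nat.card (centralizer ((α : Subgroup G) : Set G)) ≤ Nat.card (centralizer (((x • α : Sylow 5 G) : Subgroup G) : Set G)) := by
  let f : centralizer ((α : Subgroup G) : Set G) → centralizer (((x • α : Sylow 5 G) : Subgroup G) : Set G) :=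
    fun y => ⟨x * y * x⁻¹, by
      rw [mem_centralizer_iff]
      intro a ha
      have h1 : x⁻¹ * a * x ∈ (α : Subgroup G) := mem_smul_iff.mp ha
      have h2 := mem_centralizer_iff.mp y.2 _ h1
      calc a * (x * y * x⁻¹) = x * ((x⁻¹ * a * x) * y) * x⁻¹ := by group
        _ = x * (y * (x⁻¹ * a * x)) * x⁻¹ := by rw [h2]
        _ = _ := by group⟩
  apply Nat.card_le_card_of_injective f
  intro y y' h
  have h1 : x * (y : G) * x⁻¹ = x * (y' : G) * x⁻¹ := congrArg Subtype.val h
  exact Subtype.ext (by simpa using h1)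

/-- **Lines**: the centralizer of a Sylow 5-subgroup has at most 20 elements. -/
theorem card_centralizer_le_twenty (α : Sylow 5 G) : Nat.card (centralizer ((α : Subgroup G) : Set G)) ≤ 20 := by
  classical
  have := Fintype.ofFinite (Sylow 5 G)
  by_contra hbig0
  have hbig : ∀ γ : Sylow 5 G, 20 < Nat.card (centralizer ((γ : Subgroup G) : Set G)) := by
    intro γ
    obtain ⟨x, rfl⟩ := MulAction.exists_smul_eq G α γ
    exact lt_of_not_ge hbig0 |>.trans_le (card_centralizer_le_conj α x)
  have hS3 : ∀ γ δ : Sylow 5 G, γ ≠ δ →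
      Nat.card (centralizer ((γ : Subgroup G) : Set G) ⊓ normalizer ((δ : Subgroup G) : Set G) : Subgroup G) = 3 := by
    intro γ δ h
    rcases card_S h21 h with h1 | h1
    · have h2 := card_centralizer_le_S h21 h
      rw [h1] at h2
      have := hbig γ
      omega
    · exact h1
  haveI : Fact (Nat.Prime 3) := ⟨Nat.prime_three⟩
  have hw3 : ∀ γ δ : Sylow 5 G, γ ≠ δ → ∃ w : G, orderOf w = 3 ∧
      w ∈ centralizer ((γ : Subgroup G) : Set G) ∧ w • δ = δ := by
    intro γ δ h
    have h3 : 3 ∣ Nat.card (centralizer ((γ : Subgroup G) : Set G) ⊓ normalizer ((δ : Subgroup G) : Set G) : Subgroup G) := by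
      rw [hS3 γ δ h]
    obtain ⟨g, hg⟩ := exists_prime_orderOf_dvd_card' 3 h3
    exact ⟨g, by rw [Subgroup.orderOf_coe]; exact hg, g.2.1, smul_eq_iff.mpr g.2.2⟩
  obtain ⟨β, hβ⟩ := exists_ne_sylow h21 α
  obtain ⟨w, ho, hwC, hwβ⟩ := hw3 α β hβ.symm
  let L : Finset (Sylow 5 G) := Finset.univ.filter (· ∈ fixedBy (Sylow 5 G) w)
  have hL : L.card = 6 := (card_filter_mem _).trans (order_three_fix_eq_six h21 ho hwC)
  obtain ⟨Γ, hΓ⟩ : ∃ Γ : Sylow 5 G, Γ ∉ L := by
    by_contra hc
    push Not at hc
    have h1 : L = Finset.univ := Finset.eq_univ_iff_forall.mpr hc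
    rw [h1, Finset.card_univ, ← Nat.card_eq_fintype_card, h21] at hL
    omega
  have hodd3 : Odd 3 := by decide
  have hsep : ∀ δ ∈ L, ∀ δ' ∈ L, ∀ h ∈ (Γ : Subgroup G), h • δ = δ' → δ = δ' := by
    intro δ hδ δ' hδ' h hh hh'
    by_contra hdd
    have hδw : w • δ = δ := (Finset.mem_filter.mp hδ).2
    have hδ'w : w • δ' = δ' := (Finset.mem_filter.mp hδ').2
    have hΓδ : Γ ≠ δ := fun hc => hΓ (hc ▸ hδ)
    obtain ⟨v, hv3, hvC, hvδ⟩ := hw3 Γ δ hΓδ
    have hvδ' : v • δ' = δ' := by
      rw [← hh', smul_smul, ← mem_centralizer_iff.mp hvC h hh, mul_smul, hvδ]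
    have hwC' := mem_centralizer_of_odd δ (card_sylow h21 δ) (smul_eq_iff.mp hδw) (by rw [ho]; exact hodd3)
    have hvC' := mem_centralizer_of_odd δ (card_sylow h21 δ) (smul_eq_iff.mp hvδ) (by rw [hv3]; exact hodd3)
    have hcard := hS3 δ δ' hdd
    have hz := SmallSimple.eq_zpowers_of_card hcard (g := v) ⟨hvC', smul_eq_iff.mp hvδ'⟩ hv3
    have hwz : w ∈ zpowers v := by
      rw [← hz]
      exact ⟨hwC', smul_eq_iff.mp hδ'w⟩
    have hvΓ : v • Γ = Γ := smul_eq_iff.mpr (centralizer_le_normalizer _ hvC)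
    apply hΓ
    refine Finset.mem_filter.mpr ⟨Finset.mem_univ _, ?_⟩
    have h2 : zpowers v ≤ stabilizer G Γ := by
      rw [zpowers_le]
      exact hvΓ
    exact h2 hwz
  have := sep_card_le h21 Γ L hΓ hsep
  omega

end Main

end Cfsg.Agent.Lib.Small.Syl21
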