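import Mathlib
import Cfsg.Agent.Lib.Small.Syl21c
import Cfsg.Agent.Lib.Small.Sweep

/-! No group has exactly 21 Sylow 5-subgroups, part 4: the simple case. -/

set_option autoImplicit false

namespace Cfsg.Agent.Lib.Small.Syl21

open Subgroup MulAction

variable {G : Type*} [Group G] [Finite G]

theorem card_normalizer_eq_mul (H : Subgroup G) :
    Nat.card (normalizer (H : Set G)) =
      Nat.card (centralizer (H : Set G)) * (centralizer (H : Set G)).relIndex (normalizer (H : Set G)) := by
  have h1 := Subgroup.card_mul_index ((centralizer (H : Set G)).subgroupOf (normalizer (H : Set G)))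
  rw [Nat.card_congr (Subgroup.subgroupOfEquivOfLe (centralizer_le_normalizer (H : Set G))).toEquiv] at h1
  exact h1.symm

theorem card_norm_mul {p : ℕ} [Fact p.Prime] (P : Sylow p G) :
    Nat.card (normalizer ((P : Subgroup G) : Set G)) * Nat.card (Sylow p G) = Nat.card G :=
  SmallSimple.card_normalizer_mul_card_sylow p P

section Main

variable (h21 : Nat.card (Sylow 5 G) = 21) [IsSimpleGroup G]

include h21

/-- The normalizer of a Sylow 7-subgroup. -/
theorem seven_test {a : ℕ} (hG7 : Nat.card G = 7 ^ 1 * a) (ha : ¬ 7 ∣ a) (h5 : 5 ∣ Nat.card G)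
    (hfree : ∀ R : Sylow 5 G, ¬ 7 ∣ Nat.card (normalizer ((R : Subgroup G) : Set G))) :
    ∃ m : ℕ, m * Nat.card (Sylow 7 G) = Nat.card G ∧ m ∣ 126 ∧ m ≠ 7 := by
  classical
  have := Fintype.ofFinite (Sylow 5 G)
  obtain ⟨Y⟩ : Nonempty (Sylow 7 G) := inferInstance
  have hY : Nat.card (Y : Subgroup G) = 7 := by
    have := SmallSimple.sylow_card_of_eq Y hG7 ha
    simpa using this
  have hYN : ∀ R : Sylow 5 G, ∃ y : (Y : Subgroup G), y • R ≠ R := by
    intro R
    by_contra hc
    push Not at hc
    apply hfree R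
    rw [← hY]
    apply Subgroup.card_dvd_of_le
    intro y hy
    exact smul_eq_iff.mp (hc ⟨y, hy⟩)
  have hfr : ∀ s ∈ centralizer ((Y : Subgroup G) : Set G), ∀ R : Sylow 5 G, s • R = R → s = 1 := by
    intro s hs R hR
    by_contra hs1
    obtain ⟨k, q, hq, ho⟩ := exists_pow_prime s hs1
    have hs' : s ^ k ∈ centralizer ((Y : Subgroup G) : Set G) := pow_mem hs k
    have hR' : s ^ k • R = R := smul_pow_of_fix k hR
    have h1 := fix_le_six h21 hq ho hR'
    have h2 : 7 ∣ Nat.card (fixedBy (Sylow 5 G) (s ^ k)) := by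
      apply card_inv_modEq_zero (H := (Y : Subgroup G)) Y.isPGroup' _ ?_ ?_
      · intro y x hx
        rw [mem_fixedBy] at hx ⊢
        show s ^ k • (y : G) • x = (y : G) • x
        rw [smul_smul, ← mem_centralizer_iff.mp hs' y y.2, mul_smul, hx]
      · intro x _
        exact hYN x
    have h3 : 0 < Nat.card (fixedBy (Sylow 5 G) (s ^ k)) := by
      rw [Nat.card_pos_iff]
      exact ⟨⟨⟨R, hR'⟩⟩, Set.toFinite _ |>.to_subtype⟩
    have := Nat.le_of_dvd h3 h2
    omega
  have hC : Nat.card (centralizer ((Y : Subgroup G) : Set G)) ∣ 21 := by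
    have h1 := card_dvd_of_free (H := centralizer ((Y : Subgroup G) : Set G)) (Finset.univ : Finset (Sylow 5 G))
      (fun _ _ _ => Finset.mem_univ _)
      (fun s R _ hs => Subtype.ext (hfr s s.2 R hs))
    rw [Finset.card_univ, ← Nat.card_eq_fintype_card, h21] at h1
    exact h1
  have ht : (centralizer ((Y : Subgroup G) : Set G)).relIndex (normalizer ((Y : Subgroup G) : Set G)) ∣ 6 := by
    have h1 := SmallSimple.relIndex_centralizer_normalizer_dvd Y
    haveI : IsCyclic (Y : Subgroup G) := isCyclic_of_prime_card (p := 7) hY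
    rw [IsCyclic.card_mulAut, hY] at h1
    exact h1
  have hN := card_normalizer_eq_mul (Y : Subgroup G)
  refine ⟨Nat.card (normalizer ((Y : Subgroup G) : Set G)), card_norm_mul Y, ?_, ?_⟩
  · rw [hN]
    exact Nat.mul_dvd_mul hC ht
  · intro hm
    have h1 : ¬ IsPGroup 7 G := SmallSimple.not_isPGroup_of_dvd (by norm_num) (by norm_num : Nat.Prime 5) (by norm_num) h5
    have h2 : 7 ∣ Nat.card G := by rw [hG7]; exact ⟨a, by ring⟩
    exact SmallSimple.false_of_cyclic_sylow h2 h1 Y (isCyclic_of_prime_card (p := 7) hY) 1 (hm.trans (by rw [hY])) (by norm_num)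

/-- The count for order 1680. -/
theorem count_1680 (hG : Nat.card G = 1680)
    (hC : ∀ γ : Sylow 5 G, Nat.card (centralizer ((γ : Subgroup G) : Set G)) = 20)
    (h7 : Nat.card {g : G // orderOf g = 7} = 720) : False := by
  classical
  have := Fintype.ofFinite G
  have := Fintype.ofFinite (Sylow 5 G)
  have hN : ∀ R : Sylow 5 G, Nat.card (normalizer ((R : Subgroup G) : Set G)) = 80 := by
    intro R
    have h1 := card_norm_mul R
    rw [h21, hG] at h1
    omega
  have hcard21 : (Finset.univ : Finset (Sylow 5 G)).card = 21 := by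
    rw [Finset.card_univ, ← Nat.card_eq_fintype_card, h21]
  have hTwo : ∀ γ δ : Sylow 5 G, γ ≠ δ →
      Nat.card (normalizer ((γ : Subgroup G) : Set G) ⊓ normalizer ((δ : Subgroup G) : Set G) : Subgroup G) = 4 := by
    intro γ δ hne
    have hS : Nat.card (centralizer ((γ : Subgroup G) : Set G) ⊓ normalizer ((δ : Subgroup G) : Set G) : Subgroup G) = 1 := by
      rcases card_S h21 hne with h | h
      · exact h
      · exfalso
        have h1 : Nat.card (centralizer ((γ : Subgroup G) : Set G) ⊓ normalizer ((δ : Subgroup G) : Set G) : Subgroup G) ∣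
            Nat.card (centralizer ((γ : Subgroup G) : Set G)) := Subgroup.card_dvd_of_le inf_le_left
        rw [h, hC γ] at h1
        omega
    have h1 := card_orbit_mul (H := centralizer ((γ : Subgroup G) : Set G)) δ
    rw [card_stab_sub, hS, hC γ, mul_one] at h1
    have h2 : Nat.card (orbit (centralizer ((γ : Subgroup G) : Set G)) δ) ≤
        Nat.card (orbit (normalizer ((γ : Subgroup G) : Set G)) δ) := by
      apply Nat.card_mono (Set.toFinite _)
      rintro _ ⟨a, rfl⟩
      exact ⟨⟨a.1, centralizer_le_normalizer _ a.2⟩, rfl⟩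
    have h3 := card_orbit_le h21 hne (H := normalizer ((γ : Subgroup G) : Set G)) le_rfl
    have h4 := card_orbit_mul (H := normalizer ((γ : Subgroup G) : Set G)) δ
    rw [card_stab_sub, hN γ] at h4
    have h5 : Nat.card (orbit (normalizer ((γ : Subgroup G) : Set G)) δ) = 20 := by omega
    rw [h5] at h4
    omega
  let f : G → ℕ := fun g => (Finset.univ.filter (fun R : Sylow 5 G => g • R = R)).card
  have hfilter : ∀ R : Sylow 5 G, (Finset.univ.filter (fun g : G => g • R = R)).card = 80 := by
    intro R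
    rw [← hN R]
    have h1 := card_filter_mem (Y := G) ((normalizer ((R : Subgroup G) : Set G) : Subgroup G) : Set G)
    rw [show (Finset.univ.filter (fun g : G => g • R = R)) =
      Finset.univ.filter (· ∈ ((normalizer ((R : Subgroup G) : Set G) : Subgroup G) : Set G)) from ?_]
    · exact h1
    · ext g
      simp only [Finset.mem_filter, Finset.mem_univ, true_and]
      exact smul_eq_iff
  have hfilter2 : ∀ R R' : Sylow 5 G, (Finset.univ.filter (fun g : G => g • R = R ∧ g • R' = R')).card =
      Nat.card (normalizer ((R : Subgroup G) : Set G) ⊓ normalizer ((R' : Subgroup G) : Set G) : Subgroup G) := by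
    intro R R'
    have h1 := card_filter_mem (Y := G) ((normalizer ((R : Subgroup G) : Set G) ⊓ normalizer ((R' : Subgroup G) : Set G) : Subgroup G) : Set G)
    rw [show (Finset.univ.filter (fun g : G => g • R = R ∧ g • R' = R')) =
      Finset.univ.filter (· ∈ ((normalizer ((R : Subgroup G) : Set G) ⊓ normalizer ((R' : Subgroup G) : Set G) : Subgroup G) : Set G)) from ?_]
    · exact h1
    · ext g
      simp only [Finset.mem_filter, Finset.mem_univ, true_and]
      exact and_congr smul_eq_iff smul_eq_iff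
  have hf1 : ∑ g : G, f g = 1680 := by
    simp only [f, Finset.card_filter]
    rw [Finset.sum_comm]
    have h1 : ∀ R : Sylow 5 G, ∑ g : G, (if g • R = R then 1 else 0) = 80 := by
      intro R
      rw [← Finset.card_filter]
      exact hfilter R
    simp only [h1, Finset.sum_const, hcard21, smul_eq_mul]
  have hf2 : ∑ g : G, f g * f g = 3360 := by
    have h0 : ∀ g : G, f g * f g = ∑ R : Sylow 5 G, ∑ R' : Sylow 5 G, (if g • R = R ∧ g • R' = R' then 1 else 0) := by
      intro g
      simp only [f, Finset.card_filter, Finset.sum_mul_sum]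
      refine Finset.sum_congr rfl fun R _ => Finset.sum_congr rfl fun R' _ => ?_
      by_cases h1 : g • R = R <;> by_cases h2 : g • R' = R' <;> simp [h1, h2]
    simp only [h0]
    rw [Finset.sum_comm]
    have h1 : ∀ R : Sylow 5 G, ∑ g : G, ∑ R' : Sylow 5 G, (if g • R = R ∧ g • R' = R' then 1 else 0) = 160 := by
      intro R
      rw [Finset.sum_comm]
      have h2 : ∀ R' : Sylow 5 G, ∑ g : G, (if g • R = R ∧ g • R' = R' then 1 else 0) =
          Nat.card (normalizer ((R : Subgroup G) : Set G) ⊓ normalizer ((R' : Subgroup G) : Set G) : Subgroup G) := by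
        intro R'
        rw [← Finset.card_filter]
        exact hfilter2 R R'
      simp only [h2]
      rw [← Finset.add_sum_erase _ _ (Finset.mem_univ R), inf_idem, hN R]
      have h3 : ∀ R' ∈ (Finset.univ : Finset (Sylow 5 G)).erase R,
          Nat.card (normalizer ((R : Subgroup G) : Set G) ⊓ normalizer ((R' : Subgroup G) : Set G) : Subgroup G) = 4 := by
        intro R' hR'
        exact hTwo R R' (Finset.ne_of_mem_erase hR').symm
      rw [Finset.sum_congr rfl h3, Finset.sum_const, Finset.card_erase_of_mem (Finset.mem_univ _), hcard21]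
      rfl
    simp only [h1, Finset.sum_const, hcard21, smul_eq_mul]
  have hGc : (Finset.univ : Finset G).card = 1680 := by
    rw [Finset.card_univ, ← Nat.card_eq_fintype_card, hG]
  let b : G → ℤ := fun g => ((f g : ℤ) - 1) * ((f g : ℤ) - 2)
  have hb : ∑ g : G, b g = 1680 := by
    have h1 : ∀ g : G, b g = ((f g * f g : ℕ) : ℤ) - 3 * (f g : ℤ) + 2 := by
      intro g
      simp only [b]
      push_cast
      ring
    simp only [h1, Finset.sum_add_distrib, Finset.sum_sub_distrib, ← Finset.mul_sum, Finset.sum_const, hGc]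
    rw [← Nat.cast_sum, ← Nat.cast_sum, hf1, hf2]
    norm_num
  have hb0 : ∀ g : G, 0 ≤ b g := by
    intro g
    simp only [b]
    obtain h | h | h : f g = 0 ∨ f g = 1 ∨ 2 ≤ f g := by omega
    · rw [h]; norm_num
    · rw [h]; norm_num
    · have h3 : (2 : ℤ) ≤ (f g : ℤ) := by exact_mod_cast h
      exact mul_nonneg (by linarith) (by linarith)
  let A7 : Finset G := Finset.univ.filter (fun g => orderOf g = 7)
  have hA7 : A7.card = 720 := by
    rw [← h7, Nat.card_eq_fintype_card, Fintype.card_subtype]
  have h1A : (1 : G) ∉ A7 := by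
    intro h
    have := (Finset.mem_filter.mp h).2
    rw [orderOf_one] at this
    omega
  have hb1 : b 1 = 380 := by
    have h2 : f 1 = 21 := by
      simp only [f, one_smul, Finset.filter_true_of_mem, Finset.mem_univ, implies_true]
      exact hcard21
    simp only [b, h2]
    norm_num
  have hb7 : ∀ g ∈ A7, b g = 2 := by
    intro g hg
    have hg7 : orderOf g = 7 := (Finset.mem_filter.mp hg).2
    have h2 : f g = 0 := by
      simp only [f, Finset.card_eq_zero, Finset.filter_eq_empty_iff, Finset.mem_univ, true_imp_iff]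
      intro R hR
      have h3 : orderOf (⟨g, smul_eq_iff.mp hR⟩ : normalizer ((R : Subgroup G) : Set G)) ∣ _ :=
        orderOf_dvd_natCard _
      rw [Subgroup.orderOf_mk, hg7, hN R] at h3
      omega
    simp only [b, h2]
    norm_num
  have hle : ∑ g ∈ insert (1 : G) A7, b g ≤ ∑ g : G, b g :=
    Finset.sum_le_sum_of_subset_of_nonneg (Finset.subset_univ _) (fun g _ _ => hb0 g)
  rw [Finset.sum_insert h1A, Finset.sum_congr rfl hb7, hb1, hb, Finset.sum_const, hA7] at hle
  norm_num at hle

/-- **The simple case.** -/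
theorem false_of_simple : False := by
  obtain ⟨α⟩ : Nonempty (Sylow 5 G) := inferInstance
  have hα := card_sylow h21 α
  have hCle := card_centralizer_le_twenty h21 α
  have hαC : (α : Subgroup G) ≤ centralizer ((α : Subgroup G) : Set G) := by
    intro x hx
    rw [mem_centralizer_iff]
    intro y hy
    have hcyc : IsCyclic (α : Subgroup G) := isCyclic_of_prime_card (p := 5) hα
    letI := hcyc.commGroup
    have := mul_comm (⟨y, hy⟩ : (α : Subgroup G)) ⟨x, hx⟩
    exact congrArg Subtype.val this
  have h5C : 5 ∣ Nat.card (centralizer ((α : Subgroup G) : Set G)) := by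
    have h1 := Subgroup.card_dvd_of_le hαC
    rw [hα] at h1
    exact h1
  have hNC := card_normalizer_eq_mul (α : Subgroup G)
  have hG := card_norm_mul α
  rw [h21] at hG
  have hG5 : 5 ∣ Nat.card G := by
    rw [← hG, hNC]
    exact (h5C.trans (dvd_mul_right _ _)).trans (dvd_mul_right _ _)
  have hnp : ¬ IsPGroup 5 G := by
    intro h
    have h1 : ¬ (3 ∣ Nat.card G) := by
      obtain ⟨k, hk⟩ := IsPGroup.iff_card.mp h
      rw [hk]
      intro h3
      have := Nat.Prime.dvd_of_dvd_pow (by norm_num : Nat.Prime 3) h3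
      omega
    apply h1
    rw [← hG]
    exact ⟨Nat.card (normalizer ((α : Subgroup G) : Set G)) * 7, by ring⟩
  have ht : (centralizer ((α : Subgroup G) : Set G)).relIndex (normalizer ((α : Subgroup G) : Set G)) ∣ 4 := by
    have h1 := SmallSimple.relIndex_centralizer_normalizer_dvd α
    haveI : IsCyclic (α : Subgroup G) := isCyclic_of_prime_card (p := 5) hα
    rw [IsCyclic.card_mulAut, hα] at h1
    exact h1
  have ht1 : (centralizer ((α : Subgroup G) : Set G)).relIndex (normalizer ((α : Subgroup G) : Set G)) ≠ 1 := by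
    intro h
    rw [Subgroup.relIndex_eq_one] at h
    exact SmallSimple.normalizer_not_le_centralizer hG5 hnp α h
  set t := (centralizer ((α : Subgroup G) : Set G)).relIndex (normalizer ((α : Subgroup G) : Set G)) with htdef
  have ht24 : t = 2 ∨ t = 4 := by
    have h1 : t ∈ Nat.divisors 4 := Nat.mem_divisors.mpr ⟨ht, by norm_num⟩
    have h2 : Nat.divisors 4 = {1, 2, 4} := by decide
    rw [h2] at h1
    simp only [Finset.mem_insert, Finset.mem_singleton] at h1
    omega
  set C := Nat.card (centralizer ((α : Subgroup G) : Set G)) with hCdef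
  have hCpos : 0 < C := Nat.card_pos
  have hC' : C = 5 ∨ C = 10 ∨ C = 15 ∨ C = 20 := by
    obtain ⟨c, hc⟩ := h5C
    omega
  have hnc : ¬ IsMulCommutative G := by
    intro hc
    have h1 : ∀ g : G, g • α = α := by
      intro g
      rw [smul_eq_iff, mem_normalizer_iff]
      intro h
      have h2 : g * h * g⁻¹ = h := by
        rw [hc.is_comm.comm g h]
        group
      rw [h2]
    obtain ⟨x, hx⟩ : ∃ x : G, x ≠ 1 := exists_ne 1
    obtain ⟨β, hβ⟩ := exists_ne_sylow h21 α
    obtain ⟨y, hy⟩ := MulAction.exists_smul_eq G α β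
    exact hβ (hy.symm.trans (h1 y))
  have hfree : ∀ R : Sylow 5 G, Nat.card (normalizer ((R : Subgroup G) : Set G)) * 21 = Nat.card G := by
    intro R
    have h1 := card_norm_mul R
    rwa [h21] at h1
  rw [hNC] at hG
  -- the arithmetic
  have hall : ∀ a : ℕ, Nat.card G = 7 ^ 1 * a → ¬ 7 ∣ a →
      ∃ m : ℕ, m * Nat.card (Sylow 7 G) = Nat.card G ∧ m ∣ 126 ∧ m ≠ 7 := by
    intro a h1 h2
    apply seven_test h21 h1 h2 hG5
    intro R h7
    have h3 := hfree R
    obtain ⟨k, hk⟩ := h7
    rw [hk, h1] at h3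
    exact h2 ⟨3 * k, by omega⟩
  have hsev : Nat.card (Sylow 7 G) % 7 = 1 := by
    have h1 : Nat.card (Sylow 7 G) ≡ 1 [MOD 7] := card_sylow_modEq_one 7 G
    exact h1
  have hdiv : ∀ m : ℕ, m ∣ 126 → m = 1 ∨ m = 2 ∨ m = 3 ∨ m = 6 ∨ m = 7 ∨ m = 9 ∨ m = 14 ∨ m = 18 ∨
      m = 21 ∨ m = 42 ∨ m = 63 ∨ m = 126 := by
    intro m hm
    have h1 : m ∈ Nat.divisors 126 := Nat.mem_divisors.mpr ⟨hm, by norm_num⟩
    have h2 : Nat.divisors 126 = {1, 2, 3, 6, 7, 9, 14, 18, 21, 42, 63, 126} := by decide
    rw [h2] at h1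
    simpa only [Finset.mem_insert, Finset.mem_singleton] using h1
  generalize hn7 : Nat.card (Sylow 7 G) = n7 at hsev hall
  have hkill : ∀ a : ℕ, Nat.card G = 7 * a → ¬ 7 ∣ a → a ≠ 240 → (a = 60 ∨ a = 120 ∨ a = 180) → False := by
    intro a h1 h2 _ h3
    obtain ⟨m, hm1, hm2, hm3⟩ := hall a (by rw [pow_one]; exact h1) h2
    rw [h1] at hm1
    rcases hdiv m hm2 with rfl | rfl | rfl | rfl | rfl | rfl | rfl | rfl | rfl | rfl | rfl | rfl <;>
      rcases h3 with rfl | rfl | rfl <;> omega
  have hcases : Nat.card G % 4 = 2 ∨ Nat.card G = 7 * 60 ∨ Nat.card G = 7 * 120 ∨ Nat.card G = 7 * 180 ∨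
      (Nat.card G = 7 * 240 ∧ C = 20) := by
    rcases ht24 with h1 | h1 <;> rcases hC' with h2 | h2 | h2 | h2 <;> rw [h1, h2] at hG <;> omega
  rcases hcases with h | h | h | h | ⟨h, hC20⟩
  · exact Small.false_of_two_mod_four hnc h
  · exact hkill 60 h (by norm_num) (by norm_num) (Or.inl rfl)
  · exact hkill 120 h (by norm_num) (by norm_num) (Or.inr (Or.inl rfl))
  · exact hkill 180 h (by norm_num) (by norm_num) (Or.inr (Or.inr rfl))
  · -- order 1680
    have h1680 : Nat.card G = 1680 := h
    obtain ⟨m, hm1, hm2, hm3⟩ := hall 240 (by rw [pow_one]; exact h) (by norm_num)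
    rw [h1680] at hm1
    have hn120 : n7 = 120 := by
      rcases hdiv m hm2 with rfl | rfl | rfl | rfl | rfl | rfl | rfl | rfl | rfl | rfl | rfl | rfl <;> omega
    have hP7 : ∀ P : Sylow 7 G, Nat.card (P : Subgroup G) = 7 := by
      intro P
      have := SmallSimple.sylow_card_of_eq (a := 1) (m := 240) P (by rw [h1680]; norm_num) (by norm_num)
      simpa using this
    have h7 := SmallSimple.card_orderOf_eq_prime hP7
    rw [hn7, hn120] at h7
    refine count_1680 h21 h1680 ?_ h7
    intro γ
    obtain ⟨x, rfl⟩ := MulAction.exists_smul_eq G α γ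
    have h2 := card_centralizer_le_conj α x
    have h3 := card_centralizer_le_twenty h21 (x • α)
    omega

end Main

end Cfsg.Agent.Lib.Small.Syl21
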