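import Mathlib
import Cfsg.Agent.Lib.Small.Syl21d

/-! No group has exactly 21 Sylow 5-subgroups, part 5: reduction to simple groups. -/

set_option autoImplicit false

namespace Cfsg.Agent.Lib.Small.Syl21

open Subgroup MulAction
open scoped Pointwise

universe u

section Quot

variable {G : Type*} [Group G] [Finite G]

theorem card_sylow_quot (K : Subgroup G) [K.Normal] (hK : ∀ R : Sylow 5 G, ∀ g ∈ K, g • R = R) :
    Nat.card (Sylow 5 (G ⧸ K)) = Nat.card (Sylow 5 G) := by
  have hs : Function.Surjective (QuotientGroup.mk' K) := QuotientGroup.mk'_surjective K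
  have hinj : Function.Injective (Sylow.mapSurjective hs : Sylow 5 G → Sylow 5 (G ⧸ K)) := by
    intro P Q h
    have h1 : (P : Subgroup G).map (QuotientGroup.mk' K) = (Q : Subgroup G).map (QuotientGroup.mk' K) := by
      have := congrArg (fun S : Sylow 5 (G ⧸ K) => (S : Subgroup (G ⧸ K))) h
      simpa only [Sylow.coe_mapSurjective] using this
    have h2 : (Q : Subgroup G) ≤ (P : Subgroup G) := by
      intro x hx
      have h3 : QuotientGroup.mk' K x ∈ (P : Subgroup G).map (QuotientGroup.mk' K) := by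
        rw [h1]
        exact Subgroup.mem_map_of_mem _ hx
      obtain ⟨y, hy, hyx⟩ := h3
      have h4 : y⁻¹ * x ∈ K := QuotientGroup.eq.mp hyx
      have h5 : x • P = P := by
        have h6 : x = y * (y⁻¹ * x) := by group
        rw [h6, mul_smul, hK P _ h4]
        exact smul_self hy
      exact SmallSimple.mem_of_mem_normalizer_sylow Q P hx (smul_eq_iff.mp h5)
    have h3 : Q = P := Sylow.ext (Q.3 P.2 h2 |>.symm)
    exact h3.symm
  have hb : Function.Bijective (Sylow.mapSurjective hs : Sylow 5 G → Sylow 5 (G ⧸ K)) :=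
    ⟨hinj, Sylow.mapSurjective_surjective hs 5⟩
  exact (Nat.card_congr (Equiv.ofBijective _ hb)).symm

theorem dvd21_of_mod (d : ℕ) (hd : d ∣ 21) (hm : d ≡ 1 [MOD 5]) : d = 1 ∨ d = 21 := by
  have h1 : d ∈ Nat.divisors 21 := Nat.mem_divisors.mpr ⟨hd, by norm_num⟩
  have h2 : Nat.divisors 21 = {1, 3, 7, 21} := by decide
  rw [h2] at h1
  simp only [Finset.mem_insert, Finset.mem_singleton] at h1
  unfold Nat.ModEq at hm
  omega

variable (h21 : Nat.card (Sylow 5 G) = 21)

omit [Finite G] in
theorem fixes_all_of_normal [Finite G] (K : Subgroup G) [hn : K.Normal] (α : Sylow 5 G) (hK : ∀ g ∈ K, g • α = α) :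
    ∀ R : Sylow 5 G, ∀ g ∈ K, g • R = R := by
  intro R g hg
  obtain ⟨x, rfl⟩ := MulAction.exists_smul_eq G α R
  have h1 : x⁻¹ * g * x ∈ K := by
    have := hn.conj_mem g hg x⁻¹
    simpa using this
  have h2 : g * x = x * (x⁻¹ * g * x) := by group
  rw [smul_smul, h2, mul_smul, hK _ h1]

include h21

/-- A normal subgroup moving a point is transitive. -/
theorem card_orbit_normal (K : Subgroup G) [hn : K.Normal] (α : Sylow 5 G) (hK : ¬ ∀ g ∈ K, g • α = α) :
    Nat.card (orbit K α) = 21 := by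
  have hb : IsBlock G (orbit K α : Set (Sylow 5 G)) := IsBlock.orbit_of_normal α
  have h1 := hb.ncard_dvd_card ⟨α, mem_orbit_self _⟩
  rw [h21, ← Nat.card_coe_set_eq] at h1
  have hmod : Nat.card (orbit K α) ≡ 1 [MOD 5] := by
    apply card_inv_modEq_one (H := (α : Subgroup G)) α.isPGroup' (orbit K α : Set (Sylow 5 G)) ?_ α (mem_orbit_self _) ?_ ?_
    · rintro a _ ⟨k, rfl⟩
      have h3 : (a : G) * k * (a : G)⁻¹ ∈ K := hn.conj_mem k k.2 a
      refine ⟨⟨_, h3⟩, ?_⟩
      show ((a : G) * k * (a : G)⁻¹) • α = (a : G) • ((k : G) • α)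
      rw [smul_smul]
      have h4 : (a : G) * k * (a : G)⁻¹ = (a : G) * k * (a : G)⁻¹ := rfl
      rw [mul_smul, smul_self (inv_mem a.2)]
    · intro a
      exact smul_self a.2
    · intro R _ hne
      by_contra hc
      push Not at hc
      exact hne (eq_of_le_normalizer (fun a ha => hc ⟨a, ha⟩)).symm
  rcases dvd21_of_mod _ h1 hmod with h2 | h2
  · exfalso
    apply hK
    intro g hg
    have h5 : Subsingleton (orbit K α) := (Nat.card_eq_one_iff_unique.mp h2).1
    have h6 : (⟨(⟨g, hg⟩ : K) • α, mem_orbit _ _⟩ : orbit K α) = ⟨α, mem_orbit_self _⟩ :=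
      Subsingleton.elim _ _
    exact congrArg Subtype.val h6
  · exact h2

end Quot

section Reduce

variable {G : Type*} [Group G] [Finite G]

/-- A normal subgroup of order prime to 5 cannot be transitive. -/
theorem false_of_coprime_normal (h21 : Nat.card (Sylow 5 G) = 21) (K : Subgroup G) [hn : K.Normal]
    (hK5 : ¬ 5 ∣ Nat.card K) (α : Sylow 5 G) (htr : Nat.card (orbit K α) = 21) : False := by
  classical
  letI act : MulAction (α : Subgroup G) (Sylow 3 K) :=
    MulAction.compHom (Sylow 3 K) ((MulAut.conjNormal (H := K)).comp (α : Subgroup G).subtype)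
  haveI : Fact (Nat.Prime 3) := ⟨Nat.prime_three⟩
  have hmod := α.isPGroup'.card_modEq_card_fixedPoints (Sylow 3 K)
  have hnd : ¬ 5 ∣ Nat.card (Sylow 3 K) := by
    intro h
    apply hK5
    obtain ⟨T⟩ : Nonempty (Sylow 3 K) := inferInstance
    rw [Sylow.card_eq_index_normalizer T] at h
    exact h.trans (Subgroup.index_dvd_card _)
  have hne : Nonempty (fixedPoints (α : Subgroup G) (Sylow 3 K)) := by
    by_contra hc
    rw [not_nonempty_iff] at hc
    have h0 : Nat.card (fixedPoints (α : Subgroup G) (Sylow 3 K)) = 0 := Nat.card_of_isEmpty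
    rw [h0] at hmod
    exact hnd (Nat.modEq_zero_iff_dvd.mp hmod)
  obtain ⟨⟨T, hT⟩⟩ := hne
  set T' : Subgroup G := (T : Subgroup K).map K.subtype with hT'
  have hconj : ∀ a ∈ (α : Subgroup G), ∀ t ∈ T', a * t * a⁻¹ ∈ T' := by
    rintro a ha _ ⟨t, ht, rfl⟩
    have h1 : (⟨a, ha⟩ : (α : Subgroup G)) • T = T := hT ⟨a, ha⟩
    have h2 : ((MulAut.conjNormal a : MulAut K) • T) = T := h1
    have h3 : (MulAut.conjNormal a : MulAut K) t ∈ (T : Subgroup K) := by
      have h4 : (MulAut.conjNormal a : MulAut K) t ∈ (MulAut.conjNormal a : MulAut K) • (T : Subgroup K) :=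
        Subgroup.smul_mem_pointwise_smul _ _ _ ht
      rw [← Sylow.pointwise_smul_def, h2] at h4
      exact h4
    exact ⟨_, h3, MulAut.conjNormal_apply a t⟩
  have hTp : IsPGroup 3 T' := T.isPGroup'.map K.subtype
  have hmod2 : Nat.card (orbit T' α) ≡ 1 [MOD 5] := by
    apply card_inv_modEq_one (H := (α : Subgroup G)) α.isPGroup' (orbit T' α : Set (Sylow 5 G)) ?_ α (mem_orbit_self _) ?_ ?_
    · rintro a _ ⟨k, rfl⟩
      refine ⟨⟨_, hconj a a.2 k k.2⟩, ?_⟩
      show ((a : G) * k * (a : G)⁻¹) • α = (a : G) • ((k : G) • α)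
      rw [smul_smul, mul_smul, smul_self (inv_mem a.2)]
    · intro a
      exact smul_self a.2
    · intro R _ hne
      by_contra hc
      push Not at hc
      exact hne (eq_of_le_normalizer (fun a ha => hc ⟨a, ha⟩)).symm
  have hcard := card_orbit_mul (H := T') α
  obtain ⟨e, he⟩ := IsPGroup.iff_card.mp hTp
  have h1 : Nat.card (orbit T' α) ∣ 3 ^ e := by
    rw [← he, ← hcard]
    exact dvd_mul_right _ _
  obtain ⟨f, -, hf⟩ := (Nat.dvd_prime_pow Nat.prime_three).mp h1
  have hle : Nat.card (orbit T' α) ≤ 21 := by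
    rw [← h21]
    exact Finite.card_subtype_le _
  have hf3 : f < 3 := by
    by_contra hc
    have : 3 ^ 3 ≤ 3 ^ f := Nat.pow_le_pow_right (by norm_num) (by omega)
    rw [hf] at hle
    omega
  have hone : Nat.card (orbit T' α) = 1 := by
    rw [hf] at hmod2 ⊢
    unfold Nat.ModEq at hmod2
    interval_cases f <;> simp_all
  have hfix : ∀ t ∈ T', t • α = α := by
    intro t ht
    have h5 : Subsingleton (orbit T' α) := (Nat.card_eq_one_iff_unique.mp hone).1
    have h6 : (⟨(⟨t, ht⟩ : T') • α, mem_orbit _ _⟩ : orbit T' α) = ⟨α, mem_orbit_self _⟩ :=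
      Subsingleton.elim _ _
    exact congrArg Subtype.val h6
  have hle2 : (T : Subgroup K) ≤ stabilizer K α := by
    intro t ht
    exact hfix _ ⟨t, ht, rfl⟩
  have hidx : (stabilizer K α).index = 21 := by
    rw [MulAction.index_stabilizer, ← Nat.card_coe_set_eq]
    exact htr
  have hdvd := Subgroup.index_dvd_of_le hle2
  rw [hidx] at hdvd
  exact T.not_dvd_index ((by norm_num : 3 ∣ 21).trans hdvd)

/-- The non-simple case, given the theorem for the normal subgroup. -/
theorem false_of_normal (h21 : Nat.card (Sylow 5 G) = 21)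
    (hK0 : ∀ g : G, (∀ R : Sylow 5 G, g • R = R) → g = 1)
    (K : Subgroup G) [hn : K.Normal] (hK1 : K ≠ ⊥) (ih : Nat.card (Sylow 5 K) ≠ 21) : False := by
  classical
  have hmove : ∀ R : Sylow 5 G, ¬ ∀ g ∈ K, g • R = R := by
    intro R hR
    apply hK1
    rw [eq_bot_iff]
    intro g hg
    exact hK0 g (fun R' => fixes_all_of_normal K R hR R' g hg)
  have horb : ∀ R : Sylow 5 G, Nat.card (orbit K R) = 21 := fun R => card_orbit_normal h21 K R (hmove R)
  obtain ⟨Q⟩ : Nonempty (Sylow 5 K) := inferInstance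
  have hQ' : IsPGroup 5 ((Q : Subgroup K).map K.subtype) := Q.isPGroup'.map K.subtype
  obtain ⟨R, hR⟩ := hQ'.exists_le_sylow
  have hQR : (Q : Subgroup K) = (R : Subgroup G).subgroupOf K := by
    have h1 : (Q : Subgroup K) ≤ (R : Subgroup G).subgroupOf K := by
      intro x hx
      exact hR ⟨x, hx, rfl⟩
    have h2 : IsPGroup 5 ((R : Subgroup G).subgroupOf K) :=
      R.isPGroup'.comap_subtype
    exact (Q.3 h2 h1).symm
  have hstab : stabilizer K R ≤ normalizer ((Q : Subgroup K) : Set K) := by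
    intro k hk
    rw [mem_normalizer_iff]
    intro x
    have hk' : (k : G) • R = R := hk
    have hk'' := mem_normalizer_iff.mp (smul_eq_iff.mp hk') (x : G)
    rw [hQR, mem_subgroupOf, mem_subgroupOf]
    exact hk''
  have hidx : (stabilizer K R).index = 21 := by
    rw [MulAction.index_stabilizer, ← Nat.card_coe_set_eq]
    exact horb R
  have hd : Nat.card (Sylow 5 K) ∣ 21 := by
    rw [Sylow.card_eq_index_normalizer Q, ← hidx]
    exact Subgroup.index_dvd_of_le hstab
  have hmod : Nat.card (Sylow 5 K) ≡ 1 [MOD 5] := card_sylow_modEq_one 5 K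
  have h1 : Nat.card (Sylow 5 K) = 1 := by
    rcases dvd21_of_mod _ hd hmod with h | h
    · exact h
    · exact absurd h ih
  haveI hsub : Subsingleton (Sylow 5 K) := (Nat.card_eq_one_iff_unique.mp h1).1
  -- `Q'` is normal
  have hle : ∀ R' : Sylow 5 G, (R' : Subgroup G).subgroupOf K ≤ (Q : Subgroup K) := by
    intro R'
    have h2 : IsPGroup 5 ((R' : Subgroup G).subgroupOf K) := R'.isPGroup'.comap_subtype
    obtain ⟨Q₂, hQ₂⟩ := h2.exists_le_sylow
    rwa [Subsingleton.elim Q₂ Q] at hQ₂
  have hnorm : ∀ (g : G), ∀ y ∈ (Q : Subgroup K).map K.subtype, g * y * g⁻¹ ∈ (Q : Subgroup K).map K.subtype := by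
    rintro g _ ⟨y, hy, rfl⟩
    have h2 : g * (y : G) * g⁻¹ ∈ K := hn.conj_mem y y.2 g
    have h3 : (⟨_, h2⟩ : K) ∈ ((g • R : Sylow 5 G) : Subgroup G).subgroupOf K := by
      rw [mem_subgroupOf, mem_smul_iff]
      have h4 : (y : G) ∈ (R : Subgroup G) := hR ⟨y, hy, rfl⟩
      simpa [mul_assoc] using h4
    exact ⟨_, hle _ h3, rfl⟩
  have hall : ∀ x ∈ (Q : Subgroup K).map K.subtype, x = 1 := by
    intro x hx
    apply hK0
    intro R'
    obtain ⟨g, rfl⟩ := MulAction.exists_smul_eq G R R'
    apply smul_self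
    rw [mem_smul_iff]
    apply hR
    have := hnorm g⁻¹ x hx
    simpa using this
  have hQbot : (Q : Subgroup K) = ⊥ := by
    rw [eq_bot_iff]
    intro y hy
    have h2 := hall _ ⟨y, hy, rfl⟩
    exact Subtype.ext h2
  have hK5 : ¬ 5 ∣ Nat.card K := fun h => Q.ne_bot_of_dvd_card h hQbot
  exact false_of_coprime_normal h21 K hK5 R (horb R)

end Reduce

theorem main_aux : ∀ (n : ℕ) (G : Type u) [Group G] [Finite G], Nat.card G = n →
    Nat.card (Sylow 5 G) ≠ 21 := by
  intro n
  induction n using Nat.strong_induction_on with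
  | _ n ih =>
    intro G _ _ hn h21
    have hK0 : ∀ g : G, (∀ R : Sylow 5 G, g • R = R) → g = 1 := by
      by_contra hc
      push Not at hc
      obtain ⟨g, hg, hg1⟩ := hc
      let K₀ : Subgroup G := (MulAction.toPermHom G (Sylow 5 G)).ker
      have hmem : ∀ x ∈ K₀, ∀ R : Sylow 5 G, x • R = R := by
        intro x hx R
        have h1 : MulAction.toPermHom G (Sylow 5 G) x = 1 := hx
        exact congrArg (fun f : Equiv.Perm (Sylow 5 G) => f R) h1
      have hgK : g ∈ K₀ := by
        show MulAction.toPermHom G (Sylow 5 G) g = 1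
        ext R : 1
        exact hg R
      have hq := card_sylow_quot K₀ (fun R x hx => hmem x hx R)
      have hcard := Subgroup.card_eq_card_quotient_mul_card_subgroup K₀
      have hK2 : 2 ≤ Nat.card K₀ := by
        have : Nontrivial K₀ := ⟨⟨⟨g, hgK⟩, 1, fun h => hg1 (congrArg Subtype.val h)⟩⟩
        exact Finite.one_lt_card
      have hpos : 0 < Nat.card (G ⧸ K₀) := Nat.card_pos
      have hlt : Nat.card (G ⧸ K₀) < n := by
        rw [← hn, hcard]
        nlinarith
      exact ih _ hlt (G ⧸ K₀) rfl (hq.trans h21)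
    have hnt : Nontrivial G := by
      by_contra hc
      rw [not_nontrivial_iff_subsingleton] at hc
      have h1 : Subsingleton (Sylow 5 G) := ⟨fun P Q => by
        apply Sylow.ext
        exact Subsingleton.elim _ _⟩
      have := Nat.card_eq_one_iff_unique.mpr ⟨h1, inferInstance⟩
      omega
    by_cases hs : ∀ K : Subgroup G, K.Normal → K = ⊥ ∨ K = ⊤
    · haveI : IsSimpleGroup G := ⟨hs⟩
      exact false_of_simple h21
    · push Not at hs
      obtain ⟨K, hK, h1, h2⟩ := hs
      have hlt : Nat.card K < n := by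
        rw [← hn]
        apply lt_of_le_of_ne (Subgroup.card_le_card_group K)
        intro h
        exact h2 (Subgroup.eq_top_of_card_eq K h)
      exact false_of_normal h21 hK0 K h1 (ih _ hlt K rfl)

/-- **No finite group has exactly 21 Sylow 5-subgroups.** -/
theorem main {G : Type u} [Group G] [Finite G] : Nat.card (Sylow 5 G) ≠ 21 :=
  main_aux _ G rfl

end Cfsg.Agent.Lib.Small.Syl21
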